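import Mathlib

/-!
# The product action of a wreath product: definitions and basic calculus
-/

set_option autoImplicit false
set_option linter.unusedSectionVars false

namespace CfsgLib.WrP

open Equiv Equiv.Perm

section Jordan

variable {Ω : Type*}

/-- `F` is a Jordan complement: the pointwise stabiliser of `F` is transitive outside `F` -/
def JS (K : Subgroup (Perm Ω)) (F : Finset Ω) : Prop :=
  ∀ α β, α ∉ F → β ∉ F → ∃ g ∈ K, (∀ x ∈ F, g x = x) ∧ g α = β

/-- the Jordan complements with `h` points form a Steiner system `S(t, h, |Ω|)` -/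
def Stei (K : Subgroup (Perm Ω)) (h t : ℕ) : Prop :=
  ∀ S : Finset Ω, S.card = t → ∃! B : Finset Ω, JS K B ∧ B.card = h ∧ S ⊆ B

end Jordan

variable {ι X : Type} [Fintype ι] [DecidableEq ι] [Fintype X] [DecidableEq X]

/-- the element `(τ; π)` of the wreath product in its product action -/
def wr (π : Perm ι) (τ : ι → Perm X) : Perm (ι → X) where
  toFun f := fun i => τ i (f (π.symm i))
  invFun f := fun i => (τ (π i)).symm (f (π i))
  left_inv f := by funext i; simp
  right_inv f := by funext i; simp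

@[simp] theorem wr_apply (π : Perm ι) (τ : ι → Perm X) (f : ι → X) (i : ι) :
    wr π τ f i = τ i (f (π.symm i)) := rfl

@[simp] theorem one_symm_apply {α : Type*} (a : α) : Equiv.symm (1 : Perm α) a = a := rfl

theorem wr_apply' (π : Perm ι) (τ : ι → Perm X) (f : ι → X) (i : ι) :
    wr π τ f (π i) = τ (π i) (f i) := by simp

theorem wr_mul (π π' : Perm ι) (τ τ' : ι → Perm X) :
    wr π τ * wr π' τ' = wr (π * π') (fun i => τ i * τ' (π.symm i)) := by
  ext f i; rfl

theorem wr_inv (π : Perm ι) (τ : ι → Perm X) :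
    (wr π τ)⁻¹ = wr π⁻¹ (fun i => (τ (π i))⁻¹) := by
  ext f i; rfl

theorem wr_one : wr (1 : Perm ι) (fun _ => (1 : Perm X)) = 1 := by
  ext f i; rfl

variable (ι X) in
/-- the wreath product `Sym X ≀ Sym ι` acting on `ι → X` -/
def W : Subgroup (Perm (ι → X)) where
  carrier := {g | ∃ (π : Perm ι) (τ : ι → Perm X), g = wr π τ}
  one_mem' := ⟨1, fun _ => 1, wr_one.symm⟩
  mul_mem' := by
    rintro _ _ ⟨π, τ, rfl⟩ ⟨π', τ', rfl⟩
    exact ⟨_, _, wr_mul π π' τ τ'⟩
  inv_mem' := by
    rintro _ ⟨π, τ, rfl⟩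
    exact ⟨_, _, wr_inv π τ⟩

theorem mem_W {g : Perm (ι → X)} : g ∈ W ι X ↔ ∃ (π : Perm ι) (τ : ι → Perm X), g = wr π τ :=
  Iff.rfl

theorem wr_mem (π : Perm ι) (τ : ι → Perm X) : wr π τ ∈ W ι X := ⟨π, τ, rfl⟩

theorem mem_W' {g : Perm (ι → X)} :
    g ∈ W ι X ↔ ∃ (π : Perm ι) (τ : ι → Perm X), ∀ f i, g f i = τ i (f (π.symm i)) := by
  constructor
  · rintro ⟨π, τ, rfl⟩; exact ⟨π, τ, fun _ _ => rfl⟩
  · rintro ⟨π, τ, h⟩; exact ⟨π, τ, by ext f i; exact h f i⟩

/-- elements of `W` preserve the Hamming distance -/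
theorem hamming_W {g : Perm (ι → X)} (hg : g ∈ W ι X) (f f' : ι → X) :
    hammingDist (g f) (g f') = hammingDist f f' := by
  obtain ⟨π, τ, rfl⟩ := hg
  unfold hammingDist
  refine Finset.card_bij (fun i _ => π.symm i) ?_ ?_ ?_
  · intro i hi
    rw [Finset.mem_filter] at hi ⊢
    exact ⟨Finset.mem_univ _, fun h => hi.2 (by simp only [wr_apply]; rw [h])⟩
  · intro i _ j _ h; exact π.symm.injective h
  · intro j hj
    refine ⟨π j, ?_, by simp⟩
    rw [Finset.mem_filter] at hj ⊢
    refine ⟨Finset.mem_univ _, fun h => hj.2 ?_⟩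
    rw [wr_apply', wr_apply'] at h
    exact (τ _).injective h

/-- `Sym X` acting on the coordinate `i` -/
def act (i : ι) : Perm X →* Perm (ι → X) where
  toFun s := wr 1 (Function.update (fun _ => 1) i s)
  map_one' := by rw [Function.update_eq_self_iff.2 rfl]; exact wr_one
  map_mul' s t := by
    rw [wr_mul]; ext f j
    by_cases h : j = i
    · subst h; simp
    · simp [h]

theorem act_mem_W (i : ι) (s : Perm X) : act i s ∈ W ι X := wr_mem _ _

@[simp] theorem act_self (i : ι) (s : Perm X) (f : ι → X) : act i s f i = s (f i) := by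
  simp [act]

theorem act_ne {i j : ι} (h : j ≠ i) (s : Perm X) (f : ι → X) : act i s f j = f j := by
  simp [act, h]

theorem act_apply (i : ι) (s : Perm X) (f : ι → X) :
    act i s f = Function.update f i (s (f i)) := by
  funext j
  by_cases h : j = i
  · subst h; simp
  · simp [act_ne h, h]

theorem act_eq_iff (i : ι) (s : Perm X) (f : ι → X) : act i s f = f ↔ s (f i) = f i := by
  constructor
  · intro h; have := congrFun h i; simpa using this
  · intro h; rw [act_apply, h, Function.update_eq_self]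

theorem act_inv_apply_self (i : ι) (s : Perm X) (f : ι → X) :
    (act i s)⁻¹ f i = s⁻¹ (f i) := by
  rw [← map_inv, act_self]

theorem act_inv_apply_ne {i j : ι} (h : j ≠ i) (s : Perm X) (f : ι → X) :
    (act i s)⁻¹ f j = f j := by
  rw [← map_inv, act_ne h]

theorem act_comm {i j : ι} (h : i ≠ j) (s t : Perm X) :
    act i s * act j t = act j t * act i s := by
  ext f l
  simp only [Perm.mul_apply]
  by_cases hi : l = i
  · subst hi; simp [act_ne h]
  · by_cases hj : l = j
    · subst hj; simp [act_ne hi]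
    · simp [act_ne hi, act_ne hj]

theorem act_injective [Nonempty X] (i : ι) : Function.Injective (act (X := X) i) := by
  intro s t h
  ext u
  have := congrFun (congrArg (fun g : Perm (ι → X) => g (fun _ => u)) h) i
  simpa using this

/-- conjugating `act i s` by an element of `W` -/
theorem wr_conj_act (π : Perm ι) (τ : ι → Perm X) (i : ι) (s : Perm X) :
    wr π τ * act i s * (wr π τ)⁻¹ = act (π i) (τ (π i) * s * (τ (π i))⁻¹) := by
  rw [mul_inv_eq_iff_eq_mul]
  ext f j
  simp only [Perm.mul_apply]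
  by_cases h : j = π i
  · subst h; rw [act_self, wr_apply', wr_apply', act_self]; simp
  · have h' : π.symm j ≠ i := fun e => h (by rw [← e]; simp)
    rw [act_ne h, wr_apply, wr_apply, act_ne h']

/-- the hyperplane `f i = a` -/
def Hp (i : ι) (a : X) : Finset (ι → X) := Finset.univ.filter fun f => f i = a

@[simp] theorem mem_Hp {i : ι} {a : X} {f : ι → X} : f ∈ Hp i a ↔ f i = a := by simp [Hp]

/-- forget the coordinate `i` -/
def res (i : ι) (f : ι → X) : {j // j ≠ i} → X := fun j => f j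

/-- the point with `i`-th coordinate `u` and other coordinates `ω` -/
def pt (i : ι) (u : X) (ω : {j // j ≠ i} → X) : ι → X :=
  fun j => if h : j = i then u else ω ⟨j, h⟩

@[simp] theorem res_apply (i : ι) (f : ι → X) (j : {j // j ≠ i}) : res i f j = f j := rfl

@[simp] theorem pt_self (i : ι) (u : X) (ω : {j // j ≠ i} → X) : pt i u ω i = u := by simp [pt]

theorem pt_ne {i j : ι} (h : j ≠ i) (u : X) (ω : {j // j ≠ i} → X) : pt i u ω j = ω ⟨j, h⟩ := by
  simp [pt, h]

@[simp] theorem pt_coe (i : ι) (u : X) (ω : {j // j ≠ i} → X) (j : {j // j ≠ i}) :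
    pt i u ω j = ω j := pt_ne j.2 u ω

@[simp] theorem res_pt (i : ι) (u : X) (ω : {j // j ≠ i} → X) : res i (pt i u ω) = ω := by
  funext j; simp

@[simp] theorem pt_res (i : ι) (f : ι → X) : pt i (f i) (res i f) = f := by
  funext j
  by_cases h : j = i
  · subst h; simp
  · simp [pt_ne h]

theorem res_eq_iff {i : ι} {f f' : ι → X} : res i f = res i f' ↔ ∀ j, j ≠ i → f j = f' j :=
  ⟨fun h j hj => congrFun h ⟨j, hj⟩, fun h => funext fun j => h j j.2⟩

theorem ext_res {i : ι} {f f' : ι → X} (h : f i = f' i) (h' : res i f = res i f') : f = f' := by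
  rw [← pt_res i f, ← pt_res i f', h, h']

@[simp] theorem res_act (i : ι) (s : Perm X) (f : ι → X) : res i (act i s f) = res i f :=
  res_eq_iff.2 fun _ hj => act_ne hj s f

theorem act_pt (i : ι) (s : Perm X) (u : X) (ω : {j // j ≠ i} → X) :
    act i s (pt i u ω) = pt i (s u) ω := ext_res (i := i) (by simp) (by simp)

/-- splitting off the coordinate `i` -/
def spl (i : ι) : (ι → X) ≃ X × ({j // j ≠ i} → X) where
  toFun f := (f i, res i f)
  invFun p := pt i p.1 p.2
  left_inv f := pt_res i f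
  right_inv p := by simp

theorem card_sub (i : ι) : Fintype.card {j // j ≠ i} = Fintype.card ι - 1 := by
  simp [Fintype.card_subtype_compl]

theorem card_res (i : ι) :
    Fintype.card ({j // j ≠ i} → X) = Fintype.card X ^ (Fintype.card ι - 1) := by
  rw [Fintype.card_fun, card_sub]

/-- counting the points whose `i`-th coordinate lies in `A` -/
theorem card_filter_mem (i : ι) (A : Finset X) :
    (Finset.univ.filter fun f : ι → X => f i ∈ A).card
      = A.card * Fintype.card X ^ (Fintype.card ι - 1) := by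
  rw [← card_res (X := X) i, ← Finset.card_univ, ← Finset.card_product]
  refine Finset.card_bij (fun f _ => spl i f) ?_ ?_ ?_
  · intro f hf; simpa [spl] using hf
  · intro f _ f' _ h; exact (spl i).injective h
  · rintro ⟨u, ω⟩ hp
    exact ⟨pt i u ω, by simpa using hp, by simp [spl]⟩

theorem card_Hp (i : ι) (a : X) : (Hp i a).card = Fintype.card X ^ (Fintype.card ι - 1) := by
  have := card_filter_mem i ({a} : Finset X)
  simpa [Hp] using this

theorem support_act (i : ι) (s : Perm X) :
    (act i s).support = Finset.univ.filter fun f : ι → X => f i ∈ s.support := by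
  ext f; simp [act_eq_iff]

theorem card_support_act (i : ι) (s : Perm X) :
    (act i s).support.card = s.support.card * Fintype.card X ^ (Fintype.card ι - 1) := by
  rw [support_act, card_filter_mem]

/-- `s` on the coordinate `i` and `σ` on the others -/
def prodp (i : ι) (s : Perm X) (σ : Perm ({j // j ≠ i} → X)) : Perm (ι → X) :=
  (spl i).symm.permCongr (Equiv.prodCongr s σ)

theorem prodp_pt (i : ι) (s : Perm X) (σ : Perm ({j // j ≠ i} → X)) (u : X)
    (ω : {j // j ≠ i} → X) : prodp i s σ (pt i u ω) = pt i (s u) (σ ω) := by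
  simp [prodp, spl]

@[simp] theorem prodp_self (i : ι) (s : Perm X) (σ : Perm ({j // j ≠ i} → X)) (f : ι → X) :
    prodp i s σ f i = s (f i) := by
  conv_lhs => rw [← pt_res i f, prodp_pt]
  simp

@[simp] theorem res_prodp (i : ι) (s : Perm X) (σ : Perm ({j // j ≠ i} → X)) (f : ι → X) :
    res i (prodp i s σ f) = σ (res i f) := by
  conv_lhs => rw [← pt_res i f, prodp_pt]
  simp

theorem prodp_mul (i : ι) (s t : Perm X) (σ ρ : Perm ({j // j ≠ i} → X)) :
    prodp i s σ * prodp i t ρ = prodp i (s * t) (σ * ρ) := by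
  refine Equiv.ext fun f => ext_res (i := i) ?_ ?_ <;> simp

theorem prodp_one_right (i : ι) (s : Perm X) : prodp i s 1 = act i s := by
  refine Equiv.ext fun f => ext_res (i := i) ?_ ?_ <;> simp

theorem act_mul_prodp (i : ι) (s t : Perm X) (σ : Perm ({j // j ≠ i} → X)) :
    act i s * prodp i t σ = prodp i (s * t) σ := by
  rw [← prodp_one_right, prodp_mul, one_mul]

theorem prodp_mem_W (i : ι) (s : Perm X) {σ : Perm ({j // j ≠ i} → X)}
    (hσ : σ ∈ W {j // j ≠ i} X) : prodp i s σ ∈ W ι X := by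
  obtain ⟨π, τ, rfl⟩ := hσ
  refine mem_W'.2 ⟨Perm.ofSubtype π, fun j => if h : j = i then s else τ ⟨j, h⟩, fun f j => ?_⟩
  have e : (Perm.ofSubtype π).symm = Perm.ofSubtype π⁻¹ := by rw [map_inv]; rfl
  rw [e]
  by_cases h : j = i
  · subst h
    rw [Perm.ofSubtype_apply_of_not_mem (p := fun x => x ≠ j) _ (by simp)]; simp
  · have h1 : prodp i s (wr π τ) f j = res i (prodp i s (wr π τ) f) ⟨j, h⟩ := rfl
    rw [h1, res_prodp, Perm.ofSubtype_apply_of_mem (p := fun x => x ≠ i) _ h]
    simp [h]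

/-- an element of `W` that fixes the coordinate `i` is a `prodp` -/
theorem wr_eq_prodp {i : ι} {π : Perm ι} (h : π i = i) (τ : ι → Perm X) :
    ∃ σ ∈ W {j // j ≠ i} X, wr π τ = prodp i (τ i) σ := by
  have hp : ∀ j, π j ≠ i ↔ j ≠ i := fun j => by
    conv_lhs => rw [← h]
    exact π.injective.ne_iff
  refine ⟨wr (π.subtypePerm hp) (fun j => τ j), wr_mem _ _, ?_⟩
  refine Equiv.ext fun f => ext_res (i := i) ?_ ?_
  · have : π.symm i = i := by rw [Equiv.symm_apply_eq, h]
    simp [this]
  · rw [res_prodp]; rfl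

/-- the permutations of the lines in direction `i` induced by the elements of `M` that
permute the segments `A × {ω}` -/
def shadow (M : Subgroup (Perm (ι → X))) (i : ι) (A : Finset X) :
    Subgroup (Perm ({j // j ≠ i} → X)) where
  carrier := {σ | ∃ g ∈ M, ∀ f, (g f i ∈ A ↔ f i ∈ A) ∧ (f i ∈ A → res i (g f) = σ (res i f))}
  one_mem' := ⟨1, M.one_mem, fun f => by simp⟩
  mul_mem' := by
    rintro σ ρ ⟨g, hg, h⟩ ⟨g', hg', h'⟩
    refine ⟨g * g', M.mul_mem hg hg', fun f => ⟨(h _).1.trans (h' f).1, fun hf => ?_⟩⟩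
    rw [Perm.mul_apply, (h _).2 ((h' f).1.2 hf), (h' f).2 hf, Perm.mul_apply]
  inv_mem' := by
    rintro σ ⟨g, hg, h⟩
    refine ⟨g⁻¹, M.inv_mem hg, fun f => ?_⟩
    have h1 := h (g⁻¹ f)
    simp only [Perm.coe_inv, Equiv.apply_symm_apply] at h1 ⊢
    exact ⟨h1.1.symm, fun hf => by rw [h1.2 (h1.1.1 hf)]; simp⟩

theorem mem_shadow {M : Subgroup (Perm (ι → X))} {i : ι} {A : Finset X}
    {σ : Perm ({j // j ≠ i} → X)} : σ ∈ shadow M i A ↔
      ∃ g ∈ M, ∀ f, (g f i ∈ A ↔ f i ∈ A) ∧ (f i ∈ A → res i (g f) = σ (res i f)) := Iff.rfl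

/-- the standing hypothesis on an overgroup `K` of the even part of `W` -/
structure Hyp (K : Subgroup (Perm (ι → X))) : Prop where
  five : 5 ≤ Fintype.card X
  alt : ∀ i (s : Perm X), sign s = 1 → act i s ∈ K
  cover : ∀ i, ∀ σ ∈ W {j // j ≠ i} X, ∃ s, prodp i s σ ∈ K
  trans : ∀ i j, ∃ (π : Perm ι) (τ : ι → Perm X), π i = j ∧ wr π τ ∈ K

theorem Hyp.three {K : Subgroup (Perm (ι → X))} (hK : Hyp K) (i : ι) {y : Perm X}
    (hy : y.IsThreeCycle) : act i y ∈ K := hK.alt i y hy.sign

/-- the permutation on the coordinate `i` can be prescribed up to any one transposition -/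
theorem Hyp.cover' {K : Subgroup (Perm (ι → X))} (hK : Hyp K) (i : ι)
    {σ : Perm ({j // j ≠ i} → X)} (hσ : σ ∈ W {j // j ≠ i} X) (t : Perm X) {u v : X}
    (huv : u ≠ v) : prodp i t σ ∈ K ∨ prodp i (swap u v * t) σ ∈ K := by
  obtain ⟨s, hs⟩ := hK.cover i σ hσ
  rcases Int.units_eq_one_or (sign (t * s⁻¹)) with h | h
  · left
    have := K.mul_mem (hK.alt i _ h) hs
    rwa [act_mul_prodp, inv_mul_cancel_right] at this
  · right
    have h' : sign (swap u v * (t * s⁻¹)) = 1 := by
      rw [Perm.sign_mul, h, sign_swap huv]; simp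
    have := K.mul_mem (hK.alt i _ h') hs
    rwa [act_mul_prodp, mul_assoc, inv_mul_cancel_right] at this

/-- an even permutation with a prescribed value -/
theorem exists_even (h3 : 3 ≤ Fintype.card X) (a b : X) : ∃ s : Perm X, sign s = 1 ∧ s a = b := by
  by_cases h : a = b
  · exact ⟨1, by simp, by simp [h]⟩
  · obtain ⟨c, hc⟩ : ∃ c, c ∉ ({a, b} : Finset X) := by
      by_contra! hh
      have h1 := Finset.card_le_card (show Finset.univ ⊆ ({a, b} : Finset X) from fun x _ => hh x)
      have h2 : ({a, b} : Finset X).card ≤ 2 := Finset.card_le_two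
      rw [Finset.card_univ] at h1; omega
    simp only [Finset.mem_insert, Finset.mem_singleton, not_or] at hc
    refine ⟨swap a c * swap a b, by simp [h, Ne.symm hc.1], ?_⟩
    simp [swap_apply_of_ne_of_ne (Ne.symm h) (Ne.symm hc.2)]

/-- `K ∩ W` is transitive on the hyperplanes -/
theorem Hyp.hp_trans {K : Subgroup (Perm (ι → X))} (hK : Hyp K) (i j : ι) (a b : X) :
    ∃ (π : Perm ι) (τ : ι → Perm X), π i = j ∧ τ j a = b ∧ wr π τ ∈ K := by
  obtain ⟨π, τ, hπ, h⟩ := hK.trans i j
  obtain ⟨s, hs, hs'⟩ := exists_even (by have := hK.five; omega) (τ j a) b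
  have := K.mul_mem (hK.alt j s hs) h
  unfold act at this
  simp only [MonoidHom.coe_mk, OneHom.coe_mk, wr_mul, one_mul] at this
  exact ⟨π, _, hπ, by simpa using hs', this⟩

theorem hyp_of_W_le (h5 : 5 ≤ Fintype.card X) {K : Subgroup (Perm (ι → X))} (h : W ι X ≤ K) :
    Hyp K :=
  ⟨h5, fun i s _ => h (act_mem_W i s), fun i _ hσ => ⟨1, h (prodp_mem_W i 1 hσ)⟩,
    fun i j => ⟨swap i j, fun _ => 1, by simp, h (wr_mem _ _)⟩⟩

/-- an element of `K` fixing a hyperplane pointwise changes only the coordinate of that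
hyperplane -/
def R0 (K : Subgroup (Perm (ι → X))) : Prop :=
  ∀ g ∈ K, ∀ i a, (∀ f : ι → X, f i = a → g f = f) → ∀ f, res i (g f) = res i f

variable (ι X) in
/-- the induction hypothesis -/
def IH : Prop :=
  ∀ (i : ι) (L : Subgroup (Perm ({j // j ≠ i} → X))), W {j // j ≠ i} X ≤ L →
    L ≤ W {j // j ≠ i} X ∨ (3 ≤ Fintype.card ι ∧ alternatingGroup _ ≤ L)

/-- points outside a small set -/
theorem exists_notMem {A : Finset X} (h : A.card < Fintype.card X) : ∃ c, c ∉ A := by
  by_contra! hh
  have h1 := Finset.card_le_card (show Finset.univ ⊆ A from fun x _ => hh x)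
  rw [Finset.card_univ] at h1; omega

/-- the three-cycle `a ↦ b ↦ c ↦ a` -/
def c3 (a b c : X) : Perm X := swap a c * swap a b

section c3
variable {a b c : X} (hab : a ≠ b) (hac : a ≠ c) (hbc : b ≠ c)
include hab hac hbc

theorem c3_three : (c3 a b c).IsThreeCycle := isThreeCycle_swap_mul_swap_same hac hab hbc.symm

theorem c3_a : c3 a b c a = b := by simp [c3, swap_apply_of_ne_of_ne hab.symm hbc]

theorem c3_b : c3 a b c b = c := by simp [c3]

theorem c3_c : c3 a b c c = a := by simp [c3, swap_apply_of_ne_of_ne hac.symm hbc.symm]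

end c3

theorem c3_ne {a b c d : X} (ha : d ≠ a) (hb : d ≠ b) (hc : d ≠ c) : c3 a b c d = d := by
  simp [c3, swap_apply_of_ne_of_ne ha hb, swap_apply_of_ne_of_ne ha hc]

end CfsgLib.WrP
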