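import Mathlib
import Cfsg.Agent.Lib.WrP.Defs

set_option autoImplicit false
set_option linter.unusedSectionVars false

namespace CfsgLib.WrP

open Equiv Equiv.Perm

variable {ι X : Type} [Fintype ι] [DecidableEq ι] [Fintype X] [DecidableEq X]
variable {K : Subgroup (Perm (ι → X))}

/-- change the coordinates one at a time -/
theorem dich_walk (Q : ι → Prop) {P : (ι → X) → Prop}
    (step : ∀ f, P f → ∀ j, Q j → ∀ v, v ≠ f j → P (Function.update f j v)) {f f' : ι → X} (hf : P f)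
    (h : ∀ j, ¬ Q j → f j = f' j) : P f' := by
  classical
  have k : ∀ s : Finset ι, (∀ j ∈ s, Q j) → P (s.piecewise f' f) := fun s => by
    induction s using Finset.induction_on with
    | empty => exact fun _ => by simpa using hf
    | insert j s _ ih =>
      intro hs
      have h1 := ih fun l hl => hs l (Finset.mem_insert_of_mem hl)
      rw [Finset.piecewise_insert]
      by_cases e : f' j = s.piecewise f' f j
      · rwa [e, Function.update_eq_self]
      · exact step _ h1 j (hs j (Finset.mem_insert_self j s)) _ e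
  have := k (Finset.univ.filter Q) fun j hj => (Finset.mem_filter.1 hj).2
  convert this using 1
  funext j
  by_cases e : Q j
  · rw [Finset.piecewise_eq_of_mem _ _ _ (by simpa using e)]
  · rw [Finset.piecewise_eq_of_notMem _ _ _ (by simpa using e), h j e]

theorem dich_ex2 (h5 : 5 ≤ Fintype.card X) (a b : X) : ∃ c, c ≠ a ∧ c ≠ b := by
  obtain ⟨c, hc⟩ := exists_notMem (A := {a, b}) (Finset.card_le_two.trans_lt (by omega))
  exact ⟨c, by simpa using hc⟩

theorem dich_ex3 (h5 : 5 ≤ Fintype.card X) (a b d : X) : ∃ c, c ≠ a ∧ c ≠ b ∧ c ≠ d := by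
  obtain ⟨c, hc⟩ := exists_notMem (A := {a, b, d}) (Finset.card_le_three.trans_lt (by omega))
  exact ⟨c, by simpa using hc⟩

theorem dich_pair {x y x' y' : X} (h : x ≠ y) (h' : x' ≠ y') : ∃ s : Perm X, s x = x' ∧ s y = y' := by
  refine ⟨swap (swap x x' y) y' * swap x x', ?_, by simp⟩
  rw [Perm.mul_apply, swap_apply_left]
  refine swap_apply_of_ne_of_ne (fun e => h ((swap x x').injective ?_)) h'
  rw [← e, swap_apply_left]

theorem dich_cover (hK : Hyp K) (i : ι) {σ : Perm ({j // j ≠ i} → X)} (hσ : σ ∈ W {j // j ≠ i} X)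
    {a x y : X} (hx : x ≠ a) (hy : y ≠ a) : ∃ t : Perm X, t a = a ∧ t x = y ∧ prodp i t σ ∈ K := by
  obtain ⟨u, ua, uy⟩ := dich_ex2 hK.five a y
  obtain ⟨v, va, vy, vu⟩ := dich_ex3 hK.five a y u
  have e : swap x y a = a := swap_apply_of_ne_of_ne hx.symm hy.symm
  rcases hK.cover' i hσ (swap x y) vu.symm with h | h
  · exact ⟨_, e, swap_apply_left _ _, h⟩
  · refine ⟨_, ?_, ?_, h⟩
    · rw [Perm.mul_apply, e, swap_apply_of_ne_of_ne ua.symm va.symm]
    · rw [Perm.mul_apply, swap_apply_left, swap_apply_of_ne_of_ne uy.symm vy.symm]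

theorem dich_transport (hK : Hyp K) {i j l : ι} {a d e : X} {f p : ι → X} (hj : j ≠ i) (hl : l ≠ i)
    (hf : f i ≠ a) (hp : p i ≠ a) (hd : d ≠ f j) (he : e ≠ p l) :
    ∃ w ∈ K, (∀ x : ι → X, w x i = a → x i = a) ∧ w f = p ∧
      w (Function.update f j d) = Function.update p l e := by
  let π : Perm {r // r ≠ i} := swap ⟨j, hj⟩ ⟨l, hl⟩
  have hπ : π.symm ⟨l, hl⟩ = ⟨j, hj⟩ := by simp [π]
  have : ∀ r : {r // r ≠ i}, ∃ s : Perm X, s (f (π.symm r)) = p r ∧ (r = ⟨l, hl⟩ → s d = e) := fun r => by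
    by_cases h : r = ⟨l, hl⟩
    · obtain ⟨s, h1, h2⟩ := dich_pair hd.symm he.symm
      exact ⟨s, by rw [h, hπ]; exact h1, fun _ => h2⟩
    · exact ⟨swap (f (π.symm r)) (p r), swap_apply_left _ _, fun e => absurd e h⟩
  choose τ h1 h2 using this
  obtain ⟨t, ta, tf, ht⟩ := dich_cover hK i (wr_mem π τ) hf hp
  refine ⟨_, ht, fun x hx => t.injective (by rw [← prodp_self i t (wr π τ), hx, ta]),
    ext_res (i := i) (by rw [prodp_self, tf]) ?_, ext_res (i := i) ?_ ?_⟩
  · rw [res_prodp]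
    exact funext h1
  · rw [prodp_self, Function.update_of_ne hj.symm, Function.update_of_ne hl.symm, tf]
  · rw [res_prodp]
    funext r
    rw [wr_apply, res_apply, res_apply]
    by_cases h : r = ⟨l, hl⟩
    · rw [h, hπ, Function.update_self, Function.update_self]
      exact h2 _ rfl
    · rw [Function.update_of_ne (fun e => h (Subtype.ext e)), Function.update_of_ne, h1]
      exact fun e => h (π.symm.injective (hπ ▸ Subtype.ext e))

/-- DICH 1: either some hyperplane is a Jordan complement or `R0` holds -/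
theorem dich (hK : Hyp K) : (∃ i a, JS K (Hp i a)) ∨ R0 K := by
  refine or_iff_not_imp_right.2 fun hn => ?_
  unfold R0 at hn
  push Not at hn
  obtain ⟨g, hg, i, a, fix, f, hf⟩ := hn
  obtain ⟨j, hj, hfj⟩ : ∃ j, j ≠ i ∧ g f j ≠ f j := by
    by_contra! hh
    exact hf (res_eq_iff.2 hh)
  have h1 : g f i ≠ a := fun e => hfj (congrFun (g.injective (fix _ e)) j)
  obtain ⟨d, d1, d2⟩ := dich_ex2 hK.five (g f j) (f j)
  obtain ⟨e, e1, e2, e3⟩ := dich_ex3 hK.five (g f j) (f j) d
  set t := act j (c3 (g f j) d e) with ht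
  have tK : t ∈ K := hK.three j (c3_three d1.symm e1.symm e3.symm)
  have tf : t f = f := (act_eq_iff _ _ _).2 (c3_ne hfj.symm d2.symm e2.symm)
  have gi : ∀ x : ι → X, x i = a → g⁻¹ x = x := fun x hx => by rw [Perm.inv_eq_iff_eq, fix x hx]
  have y1 : ∀ x : ι → X, x i = a → (t * g * t⁻¹ * g⁻¹) x = x := fun x hx => by
    rw [Perm.mul_apply, Perm.mul_apply, Perm.mul_apply, gi x hx, fix _ (by rw [ht, act_inv_apply_ne hj.symm, hx])]
    simp
  have y2 : (t * g * t⁻¹ * g⁻¹) (g f) = Function.update (g f) j d := by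
    rw [Perm.mul_apply, Perm.mul_apply, Perm.mul_apply, show g⁻¹ (g f) = f by simp,
      show t⁻¹ f = f by rw [Perm.inv_eq_iff_eq, tf], ht, act_apply, c3_a d1.symm e1.symm e3.symm]
  refine ⟨i, a, fun p q hp hq => ?_⟩
  rw [mem_Hp] at hp hq
  simp only [mem_Hp]
  obtain ⟨p0, p1, p2⟩ : ∃ p0 : ι → X, p0 i = q i ∧ ∃ y ∈ K, (∀ x : ι → X, x i = a → y x = x) ∧ y p = p0 := by
    by_cases h : p i = q i
    · exact ⟨p, h, 1, one_mem _, fun _ _ => rfl, rfl⟩
    obtain ⟨c, c1, c2, c3'⟩ := dich_ex3 hK.five (p i) (q i) a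
    refine ⟨_, ?_, _, hK.three i (c3_three h c1.symm c2.symm), fun x hx => (act_eq_iff _ _ _).2 ?_, rfl⟩
    · rw [act_self, c3_a h c1.symm c2.symm]
    · rw [hx]
      exact c3_ne (Ne.symm hp) (Ne.symm hq) c3'.symm
  refine (dich_walk (· ≠ i) (P := fun z => z i ≠ a ∧ ∃ y ∈ K, (∀ x : ι → X, x i = a → y x = x) ∧ y p = z)
    ?_ ⟨p1 ▸ hq, p2⟩ fun r hr => ?_).2
  · rintro z ⟨z1, y, yK, yf, rfl⟩ l hl v hv
    obtain ⟨w, wK, w1, w2, w3⟩ := dich_transport hK hj hl h1 z1 d1 hv
    refine ⟨by rwa [Function.update_of_ne hl.symm], w * (t * g * t⁻¹ * g⁻¹) * w⁻¹ * y, mul_mem (mul_mem (mul_mem wK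
      (mul_mem (mul_mem (mul_mem tK hg) (inv_mem tK)) (inv_mem hg))) (inv_mem wK)) yK, fun x hx => ?_, ?_⟩
    · rw [Perm.mul_apply, Perm.mul_apply, Perm.mul_apply, yf x hx, y1 _ (w1 _ (by simpa using hx))]
      simp
    · rw [Perm.mul_apply, Perm.mul_apply, Perm.mul_apply, ← w3, ← y2, ← w2]
      simp
  · rw [not_not.1 hr, p1]

/-- DICH 2: an element of `K` that preserves every line in direction `i` lies in `act i` -/
theorem vert (hK : Hyp K) (h0 : R0 K) {g : Perm (ι → X)} (hg : g ∈ K) {i : ι}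
    (hv : ∀ f, res i (g f) = res i f) : ∃ s, g = act i s := by
  have c : ∀ f j, j ≠ i → g f j = f j := fun f => res_eq_iff.1 (hv f)
  have c' : ∀ f j, j ≠ i → g⁻¹ f j = f j := fun f j hj => by rw [← c (g⁻¹ f) j hj]; simp
  have step : ∀ (f : ι → X) j, j ≠ i → ∀ v, v ≠ f j → g (Function.update f j v) i = g f i := fun f j hj v hv => by
    obtain ⟨w, w1, w2⟩ := dich_ex2 hK.five (f j) v
    obtain ⟨d, d1, d2, d3⟩ := dich_ex3 hK.five (f j) v w
    set y := act j (c3 (f j) v w) with hy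
    have yK : y ∈ K := hK.three j (c3_three hv.symm w1.symm w2.symm)
    have yf : ∀ x : ι → X, x j = d → y x = x := fun x hx => (act_eq_iff _ _ _).2 (by rw [hx]; exact c3_ne d1 d2 d3)
    have h1 := h0 (g⁻¹ * y⁻¹ * g * y) (mul_mem (mul_mem (mul_mem (inv_mem hg) (inv_mem yK)) hg) yK) j d
      (fun x hx => by
        rw [Perm.mul_apply, Perm.mul_apply, Perm.mul_apply, yf x hx,
          show y⁻¹ (g x) = g x by rw [Perm.inv_eq_iff_eq, yf _ (by rw [c x j hj, hx])]]
        simp) f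
    have h2 : (g⁻¹ * y⁻¹ * g * y) f = f := ext_res (i := j) (by
      rw [Perm.mul_apply, Perm.mul_apply, Perm.mul_apply, c' _ j hj, hy, act_inv_apply_self, c _ j hj, act_self]
      simp) h1
    rw [Perm.mul_apply, Perm.mul_apply, Perm.mul_apply, Perm.inv_eq_iff_eq, Perm.inv_eq_iff_eq] at h2
    have h3 : y f = Function.update f j v := by rw [hy, act_apply, c3_a hv.symm w1.symm w2.symm]
    rw [← h3, h2, hy, act_ne hj.symm]
  have hs : ∀ f : ι → X, g f i = g (fun _ => f i) i := fun f =>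
    dich_walk (· ≠ i) (P := fun z => g z i = g (fun _ => f i) i) (f := fun _ => f i)
      (fun z hz j hj v hv => (step z j hj v hv).trans hz) rfl fun j hj => by rw [not_not.1 hj]
  have inj : Function.Injective fun u : X => g (fun _ => u) i := fun u u' e => by
    have : g (pt i u fun _ => u) = g (pt i u' fun _ => u) :=
      ext_res (i := i) (by rw [hs, hs (pt i u' _), pt_self, pt_self]; exact e) (by rw [hv, hv, res_pt, res_pt])
    simpa using congrFun (g.injective this) i
  exact ⟨Equiv.ofBijective _ (Finite.injective_iff_bijective.1 inj), Equiv.ext fun f =>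
    ext_res (i := i) (by rw [act_self, hs]; rfl) (by rw [hv, res_act])⟩

/-- the pointwise stabiliser of a hyperplane acts on its coordinate only -/
theorem rigid (hK : Hyp K) (h0 : R0 K) {g : Perm (ι → X)} (hg : g ∈ K) {i : ι} {a : X}
    (h : ∀ f : ι → X, f i = a → g f = f) : ∃ s, g = act i s :=
  vert hK h0 hg (h0 g hg i a h)

end CfsgLib.WrP
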