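import Mathlib
import Cfsg.Agent.Lib.WrP.Defs

set_option autoImplicit false
set_option linter.unusedSectionVars false

namespace CfsgLib.WrP

open Equiv Equiv.Perm

variable {Ω : Type*} [Fintype Ω] [DecidableEq Ω] {K : Subgroup (Perm Ω)}

theorem JS.map {F : Finset Ω} (hF : JS K F) {g : Perm Ω} (hg : g ∈ K) :
    JS K (F.map g.toEmbedding) := by
  intro α β hα hβ
  rw [Finset.mem_map_equiv] at hα hβ
  obtain ⟨k, hk, h1, h2⟩ := hF _ _ hα hβ
  refine ⟨g * k * g⁻¹, K.mul_mem (K.mul_mem hg hk) (K.inv_mem hg), fun x hx => ?_, ?_⟩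
  · rw [Finset.mem_map_equiv] at hx
    simp [h1 _ hx]
  · simp [h2]

theorem JS.inter {F F' : Finset Ω} (hF : JS K F) (hF' : JS K F')
    (h : F.card + F'.card < Fintype.card Ω) : JS K (F ∩ F') := by
  obtain ⟨γ, -, hγ⟩ := Finset.exists_mem_notMem_of_card_lt_card (s := F ∪ F') (t := Finset.univ)
    ((Finset.card_union_le _ _).trans_lt h)
  rw [Finset.mem_union, not_or] at hγ
  have key : ∀ α, α ∉ F ∩ F' → ∃ g ∈ K, (∀ x ∈ F ∩ F', g x = x) ∧ g α = γ := fun α hα => by
    rw [Finset.mem_inter, not_and_or] at hα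
    rcases hα with hα | hα
    · obtain ⟨g, hg, h1, h2⟩ := hF _ _ hα hγ.1
      exact ⟨g, hg, fun x hx => h1 x (Finset.mem_inter.1 hx).1, h2⟩
    · obtain ⟨g, hg, h1, h2⟩ := hF' _ _ hα hγ.2
      exact ⟨g, hg, fun x hx => h1 x (Finset.mem_inter.1 hx).2, h2⟩
  intro α β hα hβ
  obtain ⟨g, hg, h1, h2⟩ := key α hα
  obtain ⟨k, hk, h3, h4⟩ := key β hβ
  refine ⟨k⁻¹ * g, K.mul_mem (K.inv_mem hk) hg, fun x hx => ?_, ?_⟩
  · rw [Perm.mul_apply, h1 x hx, Perm.inv_eq_iff_eq, h3 x hx]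
  · rw [Perm.mul_apply, h2, Perm.inv_eq_iff_eq, h4]

/-- two Jordan complements of the same small size that contain a Jordan complement `F` are
conjugate under the pointwise stabiliser of `F` -/
theorem JS.conj {F B B' : Finset Ω} (hF : JS K F) (hB : JS K B) (hB' : JS K B')
    (hc : B.card = B'.card) (h2 : 2 * B.card < Fintype.card Ω) (h : F ⊆ B) (h' : F ⊆ B') :
    ∃ g ∈ K, (∀ x ∈ F, g x = x) ∧ B.map g.toEmbedding = B' := by
  induction hn : B.card - F.card using Nat.strong_induction_on generalizing F B with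
  | _ n ih =>
  by_cases e : F = B
  · subst e
    refine ⟨1, K.one_mem, fun _ _ => rfl, ?_⟩
    rw [← Finset.eq_of_subset_of_card_le h' hc.ge]
    exact Finset.map_refl
  have h1 : F.card < B.card := Finset.card_lt_card (lt_of_le_of_ne h e)
  obtain ⟨δ, a1, a2⟩ := Finset.exists_mem_notMem_of_card_lt_card h1
  obtain ⟨ε, b1, b2⟩ := Finset.exists_mem_notMem_of_card_lt_card (hc ▸ h1)
  obtain ⟨g, hg, c1, c2⟩ := hF δ ε a2 b2
  have d1 : insert ε F ⊆ B.map g.toEmbedding ∩ B' := Finset.insert_subset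
    (Finset.mem_inter.2 ⟨Finset.mem_map.2 ⟨δ, a1, c2⟩, b1⟩)
    (Finset.subset_inter (fun x hx => Finset.mem_map.2 ⟨x, h hx, c1 x hx⟩) h')
  have d2 := Finset.card_le_card d1
  rw [Finset.card_insert_of_notMem b2] at d2
  obtain ⟨k, hk, e1, e2⟩ := ih _ (by rw [Finset.card_map]; omega)
    ((hB.map hg).inter hB' (by rw [Finset.card_map]; omega)) (hB.map hg) (by rwa [Finset.card_map])
    (by rwa [Finset.card_map]) Finset.inter_subset_left Finset.inter_subset_right rfl
  refine ⟨k * g, K.mul_mem hk hg, fun x hx => ?_, by rw [← e2, Finset.map_map]; rfl⟩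
  rw [Perm.mul_apply, c1 x hx, e1 x (d1 (Finset.mem_insert_of_mem hx))]

/-- the stabiliser of `B` fixing `F` pointwise is transitive on `B \ F` -/
theorem JS.trans_in {F B : Finset Ω} (hF : JS K F) (hB : JS K B)
    (h2 : 2 * B.card < Fintype.card Ω) (h : F ⊆ B) {β β' : Ω} (hβ : β ∈ B) (hβ' : β' ∈ B)
    (hn : β ∉ F) (hn' : β' ∉ F) :
    ∃ g ∈ K, (∀ x ∈ F, g x = x) ∧ B.map g.toEmbedding = B ∧ g β = β' := by
  obtain ⟨g, hg, c1, c2⟩ := hF β β' hn hn'
  obtain ⟨k, hk, e1, e2⟩ := ((hB.map hg).inter hB (by rw [Finset.card_map]; omega)).conj (hB.map hg) hB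
    (Finset.card_map _) (by rwa [Finset.card_map]) Finset.inter_subset_left Finset.inter_subset_right
  refine ⟨k * g, K.mul_mem hk hg, fun x hx => ?_, (Finset.map_map _ _ _).symm.trans e2, ?_⟩
  · rw [Perm.mul_apply, c1 x hx, e1 x (Finset.mem_inter.2 ⟨Finset.mem_map.2 ⟨x, h hx, c1 x hx⟩, h hx⟩)]
  · rw [Perm.mul_apply, c2, e1 _ (Finset.mem_inter.2 ⟨Finset.mem_map.2 ⟨β, hβ, c2⟩, hβ'⟩)]

/-- if all subsets of `H` with fewer than `t ≤ |H| + 1` points are Jordan complements then `K` is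
`t`-transitive -/
theorem trans_of_JS {H : Finset Ω} {t : ℕ} (ht : t ≤ H.card + 1) (hn : H.card < Fintype.card Ω)
    (h : ∀ S ⊆ H, S.card < t → JS K S) : MulAction.IsMultiplyPretransitive K Ω t := by
  have key : ∀ s ≤ t, ∀ x y : Fin s ↪ Ω, ∃ g ∈ K, ∀ i, g (x i) = y i := by
    intro s hs
    induction s with
    | zero => exact fun _ _ => ⟨1, K.one_mem, fun i => i.elim0⟩
    | succ s ih =>
      intro x y
      obtain ⟨z, hz⟩ := Function.Embedding.exists_of_card_le_finset (α := Fin s) (s := H)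
        (by rw [Fintype.card_fin]; omega)
      obtain ⟨g, hg, c1⟩ := ih (by omega) (Fin.castSuccEmb.trans x) (Fin.castSuccEmb.trans y)
      obtain ⟨k, hk, c2⟩ := ih (by omega) z (Fin.castSuccEmb.trans y)
      have c3 := (h (Finset.univ.map z) (fun a ha => by
        obtain ⟨i, -, rfl⟩ := Finset.mem_map.1 ha
        exact hz ⟨i, rfl⟩) (by simp; omega)).map hk
      have c4 : ∀ a, a ∈ (Finset.univ.map z).map k.toEmbedding ↔ ∃ i : Fin s, y i.castSucc = a := fun a => by
        simp [Equiv.eq_symm_apply, c2]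
      obtain ⟨l, hl, c5, c6⟩ := c3 (g (x (Fin.last s))) (y (Fin.last s))
        (fun e => by
          obtain ⟨i, e⟩ := (c4 _).1 e
          exact (Fin.castSucc_lt_last i).ne (x.injective (g.injective ((c1 i).trans e))))
        (fun e => by
          obtain ⟨i, e⟩ := (c4 _).1 e
          exact (Fin.castSucc_lt_last i).ne (y.injective e))
      refine ⟨l * g, K.mul_mem hl hg, fun i => ?_⟩
      induction i using Fin.lastCases with
      | last => exact c6
      | cast i => exact (congrArg l (c1 i)).trans (c5 _ ((c4 _).2 ⟨i, rfl⟩))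
  refine ⟨fun x y => ?_⟩
  obtain ⟨g, hg, e⟩ := key t le_rfl x y
  exact ⟨⟨g, hg⟩, Function.Embedding.ext e⟩

end CfsgLib.WrP
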