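import Mathlib
import Cfsg.Agent.Lib.WrP.Defs

set_option autoImplicit false
set_option linter.unusedSectionVars false

namespace CfsgLib.WrP

open Equiv Equiv.Perm

variable {X : Type} [Fintype X] [DecidableEq X]

theorem jg_swap {J : Finset X} {a b p q : X} (hab : a ≠ b) (hpq : p ≠ q) (h : a ∈ J ↔ b ∈ J)
    (h' : p ∈ J ↔ q ∈ J) : sign (swap a b * swap p q) = 1 ∧ ∀ x ∈ J, (swap a b * swap p q).symm x ∈ J := by
  refine ⟨by simp [hab, hpq], fun x hx => ?_⟩
  have k : ∀ {a b : X}, (a ∈ J ↔ b ∈ J) → ∀ x ∈ J, swap a b x ∈ J := fun h x hx => by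
    rw [swap_apply_def]
    split_ifs with h1 h2
    · exact h.1 (h1 ▸ hx)
    · exact h.2 (h2 ▸ hx)
    · exact hx
  exact k h' _ (k h x hx)

theorem jg_even (h5 : 5 ≤ Fintype.card X) {J : Finset X} {c d e : X} (hc : c ∉ J) (he : e ∉ J) (hd : d ∈ J)
    (ne : c ≠ e) : ∃ s : Perm X, sign s = 1 ∧ s c = e ∧ s d = d ∧ ∀ x ∈ J, s.symm x ∈ J := by
  obtain ⟨p, hp⟩ := exists_notMem (A := {c, d, e}) (Finset.card_le_three.trans_lt (by omega))
  obtain ⟨q, hq⟩ := exists_notMem (A := {p, c, d, e})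
    (((Finset.card_insert_le _ _).trans (Nat.succ_le_succ Finset.card_le_three)).trans_lt (by omega))
  simp only [Finset.mem_insert, Finset.mem_singleton, not_or] at hp hq
  have dc : d ≠ c := fun k => hc (k ▸ hd)
  have de : d ≠ e := fun k => he (k ▸ hd)
  have k : ∀ p, p ∉ J → p ≠ c → p ≠ e → ∃ s : Perm X, sign s = 1 ∧ s c = e ∧ s d = d ∧ ∀ x ∈ J, s.symm x ∈ J :=
    fun p h1 h2 h3 => by
    obtain ⟨a1, a2⟩ := jg_swap (J := J) h2.symm ne (iff_of_false hc h1) (iff_of_false hc he)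
    exact ⟨_, a1, c3_a ne h2.symm h3.symm, c3_ne dc de fun k => h1 (k ▸ hd), a2⟩
  by_cases h1 : p ∈ J
  · by_cases h2 : q ∈ J
    · obtain ⟨a1, a2⟩ := jg_swap (J := J) ne (Ne.symm hq.1) (iff_of_false hc he) (iff_of_true h1 h2)
      refine ⟨_, a1, ?_, ?_, a2⟩
      · rw [Perm.mul_apply, swap_apply_of_ne_of_ne (Ne.symm hp.1) (Ne.symm hq.2.1), swap_apply_left]
      · rw [Perm.mul_apply, swap_apply_of_ne_of_ne (Ne.symm hp.2.1) (Ne.symm hq.2.2.1),
          swap_apply_of_ne_of_ne dc de]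
    · exact k q h2 hq.2.1 hq.2.2.2
  · exact k p h1 hp.1 hp.2.2

/-- JG: no Steiner system `S(t, m, m²)`, `2 ≤ t < m`, on the `m × m` grid has the rows and columns
among its blocks and is invariant under `A_m × A_m` -/
theorem grid (h5 : 5 ≤ Fintype.card X) (P : Finset (X × X) → Prop) {t : ℕ} (ht2 : 2 ≤ t)
    (ht : t < Fintype.card X) (hcard : ∀ B, P B → B.card = Fintype.card X)
    (hrow : ∀ a, P ({a} ×ˢ Finset.univ)) (hcol : ∀ a, P (Finset.univ ×ˢ {a}))
    (hinv : ∀ B, P B → ∀ s s' : Perm X, sign s = 1 → sign s' = 1 →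
      P (B.map (Equiv.prodCongr s s').toEmbedding))
    (hS : ∀ S : Finset (X × X), S.card = t → ∃! B, P B ∧ S ⊆ B) : False := by
  obtain ⟨r1, r2, hr⟩ : ∃ r1 r2 : X, r1 ≠ r2 := Fintype.exists_pair_of_one_lt_card (by omega)
  have uq : ∀ (S) {B B'}, S.card = t → P B → P B' → S ⊆ B → S ⊆ B' → B = B' :=
    fun S _ _ c h h' s s' => (hS S c).unique ⟨h, s⟩ ⟨h', s'⟩
  have cT : ∀ (J : Finset X) (c : X), (insert (r2, c) ({r1} ×ˢ J)).card = J.card + 1 := fun J c => by
    rw [Finset.card_insert_of_notMem (by simp [hr])]; simp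
  have sT : ∀ {J : Finset X} {c : X} {B : Finset (X × X)},
      insert (r2, c) ({r1} ×ˢ J) ⊆ B ↔ (r2, c) ∈ B ∧ ∀ x ∈ J, (r1, x) ∈ B := fun {J c B} => by
    simp [Finset.subset_iff]
  have ex : ∀ (J : Finset X) (c : X), J.card + 1 = t → ∃ B, P B ∧ (r2, c) ∈ B ∧ ∀ x ∈ J, (r1, x) ∈ B :=
    fun J c h => by simpa only [sT] using (hS _ ((cT J c).trans h)).exists
  have mv : ∀ {B} {J : Finset X} {c}, P B → J.card + 1 = t → (r2, c) ∈ B → (∀ x ∈ J, (r1, x) ∈ B) →
      ∀ s s' : Perm X, sign s = 1 → sign s' = 1 → s r1 = r1 → s r2 = r2 → s' c = c →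
      (∀ x ∈ J, s'.symm x ∈ J) → ∀ a b, (a, b) ∈ B → (s a, s' b) ∈ B :=
    fun {B J c} hB hJ h1 h2 s s' e e' a1 a2 a3 a4 a b hab => by
    rw [uq _ ((cT J c).trans hJ) hB (hinv B hB s s' e e') (sT.2 ⟨h1, h2⟩) (sT.2
      ⟨Finset.mem_map.2 ⟨_, h1, by simp [a2, a3]⟩,
        fun x hx => Finset.mem_map.2 ⟨_, h2 _ (a4 x hx), by simp [a1]⟩⟩)]
    exact Finset.mem_map.2 ⟨_, hab, rfl⟩
  have h0 : ∀ {B} {J : Finset X} {c}, P B → J.card + 1 = t → (r2, c) ∈ B → (∀ x ∈ J, (r1, x) ∈ B) →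
      ∀ e, (r1, e) ∈ B → e ∈ J := fun {B J c} hB hJ h1 h2 e he => by
    by_contra k
    rw [uq ({r1} ×ˢ insert e J) (by simp [k, hJ]) hB (hrow r1)
      (by simpa [Finset.subset_iff, he] using h2) (Finset.product_subset_product_right (by simp))] at h1
    simp [hr] at h1
  have h1 : ∀ {B} {J : Finset X} {c}, P B → J.card + 1 = t → (r2, c) ∈ B → (∀ x ∈ J, (r1, x) ∈ B) → c ∉ J ∨ 3 ≤ t →
      ∀ a b, (a, b) ∈ B → a = r1 ∨ a = r2 := fun {B J c} hB hJ h1 h2 h3 a b hab => by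
    by_contra k
    rw [not_or] at k
    have a1 : ∀ a', a' ≠ r1 → a' ≠ r2 → (a', b) ∈ B := fun a' k1 k2 => by
      by_cases e : a = a'
      · exact e ▸ hab
      obtain ⟨x, hx⟩ := exists_notMem (A := {r1, r2, a, a'})
        (((Finset.card_insert_le _ _).trans (Nat.succ_le_succ Finset.card_le_three)).trans_lt (by omega))
      simp only [Finset.mem_insert, Finset.mem_singleton, not_or] at hx
      have := mv hB hJ h1 h2 (c3 a a' x) 1 (c3_three e (Ne.symm hx.2.2.1) (Ne.symm hx.2.2.2)).sign (by simp)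
        (c3_ne (Ne.symm k.1) k1.symm (Ne.symm hx.1)) (c3_ne (Ne.symm k.2) k2.symm (Ne.symm hx.2.1)) rfl
        (fun _ h => h) a b hab
      rwa [c3_a e (Ne.symm hx.2.2.1) (Ne.symm hx.2.2.2)] at this
    have a2 : ({r1, r2}ᶜ : Finset X) ×ˢ {b} ⊆ B := fun ⟨x, y⟩ hx => by
      simp only [Finset.mem_product, Finset.mem_compl, Finset.mem_insert, Finset.mem_singleton, not_or] at hx
      exact hx.2 ▸ a1 x hx.1.1 hx.1.2
    have a3 : (({r1, r2}ᶜ : Finset X) ×ˢ ({b} : Finset X)).card = Fintype.card X - 2 := by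
      rw [Finset.card_product, Finset.card_compl, Finset.card_pair hr, Finset.card_singleton, mul_one]
    have a4 := Finset.card_le_card (Finset.union_subset a2 (sT.2 ⟨h1, h2⟩))
    rw [Finset.card_union_of_disjoint (Finset.disjoint_left.2 fun ⟨x, y⟩ k1 k2 => by
      simp only [Finset.mem_product, Finset.mem_compl, Finset.mem_insert, Finset.mem_singleton, not_or,
        Prod.mk.injEq] at k1 k2
      tauto), a3, cT, hcard B hB] at a4
    obtain ⟨S, s1, s2⟩ := Finset.exists_subset_card_eq (s := ({r1, r2}ᶜ : Finset X) ×ˢ ({b} : Finset X))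
      (n := t) (by omega)
    rw [uq S s2 hB (hcol b) (s1.trans a2) (s1.trans (Finset.product_subset_product_left (by simp)))] at h1 h2
    obtain ⟨j, hj⟩ := Finset.card_pos.1 (show 0 < J.card by omega)
    have := h2 j hj
    simp only [Finset.mem_product, Finset.mem_univ, Finset.mem_singleton, true_and] at h1 this
    exact h3.elim (fun k => k (h1 ▸ this ▸ hj)) (by omega)
  have h2 : ∀ {B} {J : Finset X} {c}, P B → J.card + 1 = t → (r2, c) ∈ B → (∀ x ∈ J, (r1, x) ∈ B) → c ∉ J ∨ 3 ≤ t →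
      (Finset.univ.filter fun e => (r2, e) ∈ B).card = Jᶜ.card := fun {B J c} hB hJ k1 k2 k3 => by
    have e : B = {r1} ×ˢ J ∪ {r2} ×ˢ Finset.univ.filter fun e => (r2, e) ∈ B := by
      ext ⟨a, b⟩
      simp only [Finset.mem_union, Finset.mem_product, Finset.mem_singleton, Finset.mem_filter,
        Finset.mem_univ, true_and]
      refine ⟨fun h => (h1 hB hJ k1 k2 k3 a b h).imp (fun e => ⟨e, h0 hB hJ k1 k2 b (e ▸ h)⟩)
        fun e => ⟨e, e ▸ h⟩, ?_⟩
      rintro (⟨rfl, h⟩ | ⟨rfl, h⟩)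
      · exact k2 b h
      · exact h
    have := hcard B hB
    rw [e, Finset.card_union_of_disjoint (by simp +contextual [Finset.disjoint_left, hr.symm])] at this
    simp only [Finset.card_product, Finset.card_singleton, one_mul] at this
    rw [Finset.card_compl]
    omega
  have h3 : ∀ {B} {J : Finset X} {c}, P B → J.card + 1 = t → (r2, c) ∈ B → (∀ x ∈ J, (r1, x) ∈ B) → c ∉ J →
      ∀ e, (r2, e) ∈ B ↔ e ∉ J := fun {B J c} hB hJ k1 k2 k3 => by
    have a1 := h2 hB hJ k1 k2 (Or.inl k3)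
    by_cases a2 : (Finset.univ.filter fun e => (r2, e) ∈ B) ⊆ Jᶜ
    · simpa using Finset.ext_iff.1 (Finset.eq_of_subset_of_card_le a2 a1.ge)
    obtain ⟨d, d1, d2⟩ := Finset.not_subset.1 a2
    obtain ⟨e, e1, e2⟩ := Finset.not_subset.1 fun k => a2 (Finset.eq_of_subset_of_card_le k a1.le).ge
    simp only [Finset.mem_filter, Finset.mem_univ, true_and, Finset.mem_compl, not_not] at d1 d2 e1 e2
    obtain ⟨s, s1, s2, s3, s4⟩ := jg_even h5 k3 e1 d2 fun k => e2 (k ▸ k1)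
    exact (e2 (s2 ▸ mv hB hJ d1 k2 1 s (by simp) s1 rfl rfl s3 s4 r2 c k1)).elim
  obtain ⟨J, -, cJ⟩ := Finset.exists_subset_card_eq (s := (Finset.univ : Finset X)) (n := t - 1)
    (by rw [Finset.card_univ]; omega)
  have hJ : J.card + 1 = t := by omega
  have cc := Finset.card_compl J
  obtain ⟨c, hc, c', hc', cne⟩ := Finset.one_lt_card.1 (show 1 < Jᶜ.card by omega)
  obtain ⟨d, hd⟩ := Finset.card_pos.1 (show 0 < J.card by omega)
  have tm : Fintype.card X ≤ t + 1 := by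
    by_contra k
    obtain ⟨x, x1, x2⟩ := Finset.exists_mem_notMem_of_card_lt_card (s := {c, c'}) (t := Jᶜ)
      (Finset.card_le_two.trans_lt (by omega))
    simp only [Finset.mem_compl, Finset.mem_insert, Finset.mem_singleton, not_or] at hc hc' x1 x2
    have cJ' : (insert x (J.erase d)).card + 1 = t := by
      rw [Finset.card_insert_of_notMem (by simp [x1]), Finset.card_erase_of_mem hd]; omega
    have n1 : c ∉ insert x (J.erase d) := by simp [hc, Ne.symm x2.1]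
    obtain ⟨B, b1, b2, b3⟩ := ex J c hJ
    obtain ⟨B', b1', b2', b3'⟩ := ex _ c cJ'
    have := uq (insert (r2, c') (insert (r2, c) ({r1} ×ˢ J.erase d)))
      (by rw [Finset.card_insert_of_notMem (by simp [cne.symm, hr]), cT, Finset.card_erase_of_mem hd]; omega)
      b1 b1' (Finset.insert_subset ((h3 b1 hJ b2 b3 hc _).2 hc')
        (sT.2 ⟨b2, fun y hy => b3 y (Finset.mem_of_mem_erase hy)⟩))
      (Finset.insert_subset ((h3 b1' cJ' b2' b3' n1 _).2 (by simp [hc', Ne.symm x2.2]))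
        (sT.2 ⟨b2', fun y hy => b3' y (Finset.mem_insert_of_mem hy)⟩))
    exact x1 (h0 b1 hJ b2 b3 x (this ▸ b3' x (Finset.mem_insert_self _ _)))
  obtain ⟨B, b1, b2, b3⟩ := ex J d hJ
  have a1 := h2 b1 hJ b2 b3 (Or.inr (by omega))
  obtain ⟨d', e1, e2⟩ := Finset.exists_mem_notMem_of_card_lt_card (s := {d})
    (t := Finset.univ.filter fun e => (r2, e) ∈ B) (by rw [Finset.card_singleton]; omega)
  obtain ⟨e, e3, e4⟩ := Finset.exists_mem_notMem_of_card_lt_card (s := {d, d'}) (t := J)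
    (Finset.card_le_two.trans_lt (by omega))
  simp only [Finset.mem_compl, Finset.mem_insert, Finset.mem_singleton, not_or, Finset.mem_filter,
    Finset.mem_univ, true_and] at hc hc' e1 e2 e4
  have e5 : d' ∈ J := by_contra fun k => (h3 b1 hJ e1 b3 k d).1 b2 hd
  obtain ⟨s1, s2⟩ := jg_swap (J := J) (Ne.symm e4.2) cne (iff_of_true e5 e3) (iff_of_false hc hc')
  have n : ∀ x ∈ J, swap c c' x = x := fun x hx =>
    swap_apply_of_ne_of_ne (fun k => hc (k ▸ hx)) fun k => hc' (k ▸ hx)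
  have e6 := mv b1 hJ b2 b3 1 _ (by simp) s1 rfl rfl
    (by rw [Perm.mul_apply, n d hd, swap_apply_of_ne_of_ne (Ne.symm e2) (Ne.symm e4.1)]) s2 r2 d' e1
  rw [Perm.mul_apply, n d' e5, swap_apply_left] at e6
  have := Finset.card_le_card (show ({e, d, d'} : Finset X) ⊆ Finset.univ.filter fun e => (r2, e) ∈ B by
    simpa [Finset.insert_subset_iff, b2, e1] using e6)
  rw [Finset.card_insert_of_notMem (by simp [e4]), Finset.card_pair (Ne.symm e2)] at this
  omega

end CfsgLib.WrP
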