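import Mathlib
import Cfsg.Agent.Lib.WrP.JA
import Cfsg.Agent.Lib.WrP.Dich

set_option autoImplicit false
set_option linter.unusedSectionVars false

namespace CfsgLib.WrP

open Equiv Equiv.Perm

variable {ι X : Type} [Fintype ι] [DecidableEq ι] [Fintype X] [DecidableEq X]
variable {K : Subgroup (Perm (ι → X))}

theorem js_all (hK : Hyp K) {i : ι} {a : X} (h : JS K (Hp i a)) (j : ι) (b : X) :
    JS K (Hp j b) := by
  obtain ⟨π, τ, rfl, rfl, hw⟩ := hK.hp_trans i j a b
  convert h.map hw using 1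
  ext x
  rw [Finset.mem_map_equiv, mem_Hp, mem_Hp, ← Equiv.symm_apply_eq]
  rfl

theorem js_empty (hK : Hyp K) : JS K (∅ : Finset (ι → X)) := by
  intro α β _ _
  refine dich_walk (fun _ => True) (P := fun z => ∃ g ∈ K, (∀ x ∈ (∅ : Finset (ι → X)), g x = x) ∧ g α = z)
    (f := α) ?_ ⟨1, one_mem _, fun _ _ => rfl, rfl⟩ fun _ h => absurd trivial h
  rintro z ⟨g, hg, -, rfl⟩ j - v -
  obtain ⟨s, hs, e⟩ := exists_even (by have := hK.five; omega) (g α j) v
  exact ⟨act j s * g, mul_mem (hK.alt j s hs) hg, by simp, by rw [Perm.mul_apply, act_apply, e]⟩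

theorem js_point (hK : Hyp K) {i : ι} {a : X} (h : JS K (Hp i a)) (α : ι → X) : JS K {α} := by
  intro β β' hβ hβ'
  rw [Finset.mem_singleton] at hβ hβ'
  obtain ⟨j, hj⟩ := Function.ne_iff.1 hβ
  obtain ⟨l, hl⟩ := Function.ne_iff.1 hβ'
  choose γ hγ _ using fun r => dich_ex2 hK.five (α r) (α r)
  obtain ⟨g, hg, g1, g2⟩ := js_all hK h j (α j) β γ (by simpa using hj) (by simpa using hγ j)
  obtain ⟨g', hg', g1', g2'⟩ := js_all hK h l (α l) γ β' (by simpa using hγ l) (by simpa using hl)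
  refine ⟨g' * g, mul_mem hg' hg, fun x hx => ?_, by rw [Perm.mul_apply, g2, g2']⟩
  rw [Finset.mem_singleton.1 hx, Perm.mul_apply, g1 α (by simp), g1' α (by simp)]

theorem jh_even {Ω : Type} [Fintype Ω] [DecidableEq Ω] (h3 : 3 ≤ Fintype.card Ω) {T T' : Finset Ω}
    (h : T.card = T'.card) : ∃ σ : Perm Ω, sign σ = 1 ∧ ∀ x ∈ T, σ x ∈ T' := by
  have h1 : ∀ x ∈ T, (Finset.equivOfCardEq h).extendSubtype x ∈ T' := fun x hx =>
    Equiv.extendSubtype_mem (Finset.equivOfCardEq h) x hx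
  rcases Int.units_eq_one_or (sign (Finset.equivOfCardEq h).extendSubtype) with e | e
  · exact ⟨_, e, h1⟩
  obtain ⟨u, v, uv, h2⟩ : ∃ u v : Ω, u ≠ v ∧ (u ∈ T' ↔ v ∈ T') := by
    by_cases hc : 1 < T'.card
    · obtain ⟨u, hu, v, hv, uv⟩ := Finset.one_lt_card.1 hc
      exact ⟨u, v, uv, iff_of_true hu hv⟩
    · obtain ⟨u, hu, v, hv, uv⟩ := Finset.one_lt_card.1 (show 1 < T'ᶜ.card by rw [Finset.card_compl]; omega)
      exact ⟨u, v, uv, iff_of_false (Finset.mem_compl.1 hu) (Finset.mem_compl.1 hv)⟩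
  refine ⟨swap u v * _, by rw [Perm.sign_mul, e, sign_swap uv]; simp, fun x hx => ?_⟩
  have := h1 x hx
  rw [Perm.mul_apply, swap_apply_def]
  split_ifs with e1 e2
  exacts [h2.1 (e1 ▸ this), h2.2 (e2 ▸ this), this]

theorem jh_W_le (hK : Hyp K) (i : ι) (a : X) : W {j // j ≠ i} X ≤ shadow K i {a} := fun σ hσ => by
  obtain ⟨x, hx, -⟩ := dich_ex2 hK.five a a
  obtain ⟨t, ta, -, ht⟩ := dich_cover hK i hσ hx hx
  refine ⟨_, ht, fun f => ⟨?_, fun _ => res_prodp i t σ f⟩⟩
  rw [Finset.mem_singleton, Finset.mem_singleton, prodp_self]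
  conv_lhs => rw [← ta]
  exact t.injective.eq_iff

theorem jh_not_le (hK : Hyp K) (h3 : 3 ≤ Fintype.card ι) {i : ι} {a : X} (h : JS K (Hp i a)) :
    ¬ shadow K i {a} ≤ W {j // j ≠ i} X := fun hle => by
  obtain ⟨j, l, jl⟩ := Fintype.exists_pair_of_one_lt_card (α := {j // j ≠ i}) (by rw [card_sub]; omega)
  have jl' : (j : ι) ≠ l := fun e => jl (Subtype.ext e)
  obtain ⟨b, hb, -⟩ := dich_ex2 hK.five a a
  have hc : 2 * (Hp i a).card < Fintype.card (ι → X) := by
    obtain ⟨k, hk⟩ : ∃ k, Fintype.card ι = k + 1 := ⟨_, (Nat.succ_pred_eq_of_pos (by omega)).symm⟩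
    have := hK.five
    rw [card_Hp, Fintype.card_fun, hk, Nat.add_sub_cancel, pow_succ']
    exact Nat.mul_lt_mul_of_pos_right (by omega) (pow_pos (by omega) _)
  obtain ⟨g, hg, g1, g2, g3⟩ := (js_point hK h fun _ => a).trans_in h hc (by simp)
    (β := Function.update (fun _ => a) j b) (β' := Function.update (Function.update (fun _ => a) j b) l b)
    (by simp [j.2.symm]) (by simp [j.2.symm, l.2.symm])
    (fun e => hb (by simpa using congrFun (Finset.mem_singleton.1 e) j))
    (fun e => hb (by simpa using congrFun (Finset.mem_singleton.1 e) l))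
  have hi : ∀ f : ι → X, g f i = a ↔ f i = a := fun f => by
    rw [← mem_Hp, ← g2, Finset.mem_map_equiv, Equiv.symm_apply_apply, mem_Hp]
  have inj : Function.Injective fun ω => res i (g (pt i a ω)) := fun ω ω' e => by
    have := g.injective (ext_res (i := i) (((hi _).2 (pt_self i a ω)).trans ((hi _).2 (pt_self i a ω')).symm) e)
    rw [← res_pt i a ω, this, res_pt]
  have hs : ∀ f : ι → X, f i = a →
      res i (g f) = Equiv.ofBijective _ (Finite.injective_iff_bijective.1 inj) (res i f) := fun f hf => by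
    conv_lhs => rw [← pt_res i f, hf]
    rfl
  obtain ⟨π, τ, e⟩ := hle (⟨g, hg, fun f => ⟨by simpa using hi f, fun hf => hs f (by simpa using hf)⟩⟩ :
    Equiv.ofBijective _ (Finite.injective_iff_bijective.1 inj) ∈ shadow K i {a})
  rw [e] at hs
  have e1 := hs (fun _ => a) rfl
  have e2 := hs (Function.update (fun _ => a) j b) (by simp [j.2.symm])
  rw [g1 _ (Finset.mem_singleton_self _)] at e1
  rw [g3] at e2
  have k : ∀ r : {j // j ≠ i}, Function.update (Function.update (fun _ : ι => a) j b) l b r = b → π.symm r = j :=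
    fun r hr => by
      by_contra hn
      have h1 := congrFun e1 r
      have h2 := congrFun e2 r
      rw [wr_apply, res_apply, res_apply] at h1 h2
      rw [hr, Function.update_of_ne fun e => hn (Subtype.ext e)] at h2
      exact hb (h2.trans h1.symm)
  exact jl (π.symm.injective ((k j (by simp [jl'])).trans (k l (by simp)).symm))

/-- JH: in the Jordan case `K` is set-homogeneous on a hyperplane -/
theorem js_hom (hK : Hyp K) (ih : IH ι X) (h2 : 2 ≤ Fintype.card ι) {i : ι} {a : X}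
    (h : JS K (Hp i a)) :
    ∀ S ⊆ Hp i a, ∀ S' ⊆ Hp i a, S.card = S'.card → ∃ g ∈ K, S.map g.toEmbedding = S' := by
  have alt : alternatingGroup _ ≤ shadow K i {a} := by
    rcases ih i _ (jh_W_le hK i a) with h1 | h1
    swap
    · exact h1.2
    rcases h2.eq_or_lt with h3 | h3
    swap
    · exact absurd h1 (jh_not_le hK h3 h)
    refine le_trans (fun σ _ => ?_) (jh_W_le hK i a)
    obtain ⟨u⟩ := Fintype.card_eq_one_iff_nonempty_unique.1 (show Fintype.card {j // j ≠ i} = 1 by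
      rw [card_sub, ← h3])
    refine mem_W'.2 ⟨1, fun _ => (Equiv.funUnique _ X).permCongr σ, fun f r => ?_⟩
    obtain rfl := Unique.eq_default r
    have : (Equiv.funUnique _ X).symm (f default) = f := (Equiv.funUnique _ X).symm_apply_apply f
    rw [Equiv.permCongr_apply, one_symm_apply, this]
    rfl
  intro S hS S' hS' hc
  have inj : ∀ {T : Finset (ι → X)}, T ⊆ Hp i a → (T.image (res i)).card = T.card := fun hT =>
    Finset.card_image_of_injOn fun f hf f' hf' e =>
      ext_res ((mem_Hp.1 (hT hf)).trans (mem_Hp.1 (hT hf')).symm) e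
  have h3 : 3 ≤ Fintype.card ({j // j ≠ i} → X) := by
    have := hK.five
    rw [card_res]
    exact le_trans (by omega) (Nat.le_self_pow (by omega) _)
  obtain ⟨σ, hσ, h4⟩ := jh_even h3 (((inj hS).trans hc).trans (inj hS').symm)
  obtain ⟨g, hg, h5⟩ := alt (mem_alternatingGroup.2 hσ)
  refine ⟨g, hg, Finset.eq_of_subset_of_card_le (fun x hx => ?_) (by rw [Finset.card_map, hc])⟩
  obtain ⟨f, hf, rfl⟩ := Finset.mem_map.1 hx
  have m : f i ∈ ({a} : Finset X) := Finset.mem_singleton.2 (mem_Hp.1 (hS hf))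
  obtain ⟨f', hf', e⟩ := Finset.mem_image.1 (h4 _ (Finset.mem_image_of_mem _ hf))
  rw [← (h5 f).2 m] at e
  rwa [ext_res ((mem_Hp.1 (hS' hf')).trans (Finset.mem_singleton.1 ((h5 f).1.2 m)).symm) e] at hf'

end CfsgLib.WrP
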