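import Mathlib
import Cfsg.Agent.Lib.WrP.JA

set_option autoImplicit false
set_option linter.unusedSectionVars false

namespace CfsgLib.WrP

open Equiv Equiv.Perm

variable {Ω : Type*} [Fintype Ω] [DecidableEq Ω] {K : Subgroup (Perm Ω)}

/-- Fisher's inequality for the Steiner system of Jordan complements -/
theorem fisher {H : Finset Ω} (hH : JS K H) {t : ℕ} (ht2 : 2 ≤ t) (ht : t < H.card)
    (hn : H.card < Fintype.card Ω) (hS : Stei K H.card t) :
    (H.card + 1 - t) ^ 2 + H.card ≤ Fintype.card Ω := by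
  obtain ⟨F, hF, cF⟩ := Finset.exists_subset_card_eq (s := H) (n := t - 2) (by omega)
  obtain ⟨γ, -, hγ⟩ := Finset.exists_mem_notMem_of_card_lt_card (t := Finset.univ) hn
  have c3 : ∀ a b, b ∉ F → a ∉ insert b F → (insert a (insert b F)).card = t := fun a b h1 h2 => by
    rw [Finset.card_insert_of_notMem h2, Finset.card_insert_of_notMem h1]; omega
  have sub : ∀ b ∈ H \ F, insert b F ⊆ H := fun b hb => Finset.insert_subset (Finset.mem_sdiff.1 hb).1 hF
  have cS : ∀ b ∈ H \ F, (insert γ (insert b F)).card = t := fun b hb =>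
    c3 _ _ (Finset.mem_sdiff.1 hb).2 fun e => hγ (sub b hb e)
  choose! B hB using fun b hb => (hS _ (cS b hb)).exists
  have k1 : ∀ b ∈ H \ F, ∀ c ∈ B b, c ∈ H → c ∈ insert b F := fun b hb c h1 h2 => by
    by_contra h3
    have := (hS _ (c3 c b (Finset.mem_sdiff.1 hb).2 h3)).unique
      ⟨(hB b hb).1, (hB b hb).2.1, Finset.insert_subset h1 ((Finset.subset_insert _ _).trans (hB b hb).2.2)⟩
      ⟨hH, rfl, Finset.insert_subset h2 (sub b hb)⟩
    exact hγ (this ▸ (hB b hb).2.2 (Finset.mem_insert_self _ _))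
  have k2 : ((H \ F).biUnion fun b => B b \ insert γ (insert b F)) ⊆ (insert γ H)ᶜ := fun c hc => by
    obtain ⟨b, hb, hc⟩ := Finset.mem_biUnion.1 hc
    rw [Finset.mem_sdiff, Finset.mem_insert, not_or] at hc
    rw [Finset.mem_compl, Finset.mem_insert, not_or]
    exact ⟨hc.2.1, fun e => hc.2.2 (k1 b hb c hc.1 e)⟩
  have k3 := Finset.card_le_card k2
  rw [Finset.card_biUnion, Finset.sum_const_nat (m := H.card - t), Finset.card_compl,
    Finset.card_insert_of_notMem hγ, Finset.card_sdiff_of_subset hF, cF] at k3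
  · obtain ⟨v, hv⟩ : ∃ v, H.card = t + v := ⟨H.card - t, by omega⟩
    rw [show H.card - (t - 2) = v + 2 by omega, show H.card - t = v by omega] at k3
    rw [show H.card + 1 - t = v + 1 by omega]
    have : (v + 1) ^ 2 = (v + 2) * v + 1 := by ring
    omega
  · intro b hb
    rw [Finset.card_sdiff_of_subset (hB b hb).2.2, (hB b hb).2.1, cS b hb]
  · intro b hb b' hb' ne
    rw [Function.onFun, Finset.disjoint_left]
    intro δ h1 h2
    rw [Finset.mem_sdiff] at h1 h2
    have s1 : ∀ b, insert γ F ⊆ insert γ (insert b F) := fun b =>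
      Finset.insert_subset_insert _ (Finset.subset_insert _ _)
    have := (hS _ (c3 δ γ (fun e => hγ (hF e)) fun e => h1.2 (s1 b e))).unique
      ⟨(hB b hb).1, (hB b hb).2.1, Finset.insert_subset h1.1 ((s1 b).trans (hB b hb).2.2)⟩
      ⟨(hB b' hb').1, (hB b' hb').2.1, Finset.insert_subset h2.1 ((s1 b').trans (hB b' hb').2.2)⟩
    rcases Finset.mem_insert.1 (k1 b hb b' (this ▸ (hB b' hb').2.2 (by simp)) (Finset.mem_sdiff.1 hb').1) with e | e
    · exact ne e.symm
    · exact (Finset.mem_sdiff.1 hb').2 e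

/-- JT: a small Jordan complement `H` on which `K` is set-homogeneous gives multiple
transitivity -/
theorem jt {H : Finset Ω} (hH : JS K H) (h2 : 2 * H.card < Fintype.card Ω) (h1 : 2 ≤ H.card)
    (h0 : JS K ∅) {α : Ω} (hα : α ∈ H) (hα' : JS K {α})
    (hom : ∀ S ⊆ H, ∀ S' ⊆ H, S.card = S'.card → ∃ g ∈ K, S.map g.toEmbedding = S') :
    ∃ t, 2 ≤ t ∧ MulAction.IsMultiplyPretransitive K Ω t ∧
      (t = H.card + 1 ∨ (t < H.card ∧ Stei K H.card t)) := by
  classical
  obtain ⟨F, hF, hmax⟩ := Finset.exists_max_image (H.powerset.filter fun F => F ≠ H ∧ JS K F) Finset.card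
    ⟨{α}, by
      simp only [Finset.mem_filter, Finset.mem_powerset, Finset.singleton_subset_iff]
      exact ⟨hα, fun e => by simp [← e] at h1, hα'⟩⟩
  simp only [Finset.mem_filter, Finset.mem_powerset, and_imp] at hF hmax
  have r1 : 1 ≤ F.card := hmax {α} (by simpa using hα) (fun e => by simp [← e] at h1) hα'
  have r2 : F.card < H.card := Finset.card_lt_card (lt_of_le_of_ne hF.1 hF.2.1)
  have down : ∀ j, ∀ S ⊆ H, S.card + j = F.card → JS K S := fun j => by
    induction j with
    | zero =>
      intro S hS e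
      obtain ⟨g, hg, rfl⟩ := hom F hF.1 S hS e.symm
      exact hF.2.2.map hg
    | succ j ih =>
      intro S hS e
      obtain ⟨p, hp, q, hq, ne⟩ := Finset.one_lt_card.1
        (show 1 < (H \ S).card by rw [Finset.card_sdiff_of_subset hS]; omega)
      rw [Finset.mem_sdiff] at hp hq
      have c1 := Finset.card_insert_of_notMem hp.2
      have c2 := Finset.card_insert_of_notMem hq.2
      have := (ih _ (Finset.insert_subset hp.1 hS) (by omega)).inter
        (ih _ (Finset.insert_subset hq.1 hS) (by omega)) (by omega)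
      rwa [Finset.insert_inter_of_notMem (by simp [ne, hp.2]), Finset.inter_insert_of_notMem hq.2,
        Finset.inter_self] at this
  have le : ∀ S ⊆ H, S.card ≤ F.card → JS K S := fun S hS e => down (F.card - S.card) S hS (by omega)
  by_cases e : F.card + 1 = H.card
  · refine ⟨H.card + 1, by omega, trans_of_JS le_rfl (by omega) fun S hS c => ?_, Or.inl rfl⟩
    by_cases e' : S.card ≤ F.card
    · exact le S hS e'
    · rwa [Finset.eq_of_subset_of_card_le hS (by omega)]
  have tr := trans_of_JS (K := K) (H := H) (t := F.card + 1) (by omega) (by omega)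
    fun S hS c => le S hS (by omega)
  refine ⟨F.card + 1, by omega, tr, Or.inr ⟨by omega, fun S hS => ?_⟩⟩
  refine existsUnique_of_exists_of_unique ?_ fun B B' hB hB' => ?_
  · obtain ⟨x, hx⟩ := Function.Embedding.exists_of_card_le_finset (α := Fin (F.card + 1)) (s := H)
      (by rw [Fintype.card_fin]; omega)
    obtain ⟨g, hg⟩ := tr.exists_smul_eq x
      ((S.equivFinOfCardEq hS).symm.toEmbedding.trans (Function.Embedding.subtype _))
    refine ⟨H.map g.1.toEmbedding, hH.map g.2, Finset.card_map _, fun a ha => Finset.mem_map.2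
      ⟨x (S.equivFinOfCardEq hS ⟨a, ha⟩), hx ⟨_, rfl⟩, ?_⟩⟩
    exact (DFunLike.congr_fun hg (S.equivFinOfCardEq hS ⟨a, ha⟩)).trans (by simp)
  · obtain ⟨g, hg, -, e1⟩ := h0.conj hB.1 hH hB.2.1 (by rw [hB.2.1]; exact h2) (Finset.empty_subset _)
      (Finset.empty_subset _)
    have e2 : H ∩ B'.map g.toEmbedding = H := by
      by_contra ne
      have a1 := hmax _ Finset.inter_subset_left ne
        (hH.inter (hB'.1.map hg) (by rw [Finset.card_map, hB'.2.1]; omega))
      have a2 := Finset.card_le_card (Finset.subset_inter (e1 ▸ Finset.map_subset_map.2 hB.2.2)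
        (Finset.map_subset_map.2 hB'.2.2 : S.map g.toEmbedding ⊆ _))
      rw [Finset.card_map] at a2
      omega
    exact Finset.map_injective _ (e1.trans (Finset.eq_of_subset_of_card_le (Finset.inter_eq_left.1 e2)
      (by rw [Finset.card_map, hB'.2.1])))

end CfsgLib.WrP
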