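import Mathlib
import Cfsg.Agent.Lib.WrP.Defs
import Cfsg.Agent.S0711

set_option autoImplicit false
set_option linter.unusedSectionVars false

namespace CfsgLib.WrP

open Equiv Equiv.Perm

variable {Ω : Type*} [Fintype Ω] [DecidableEq Ω] {K : Subgroup (Perm Ω)}

theorem md_three (h3 : MulAction.IsMultiplyPretransitive K Ω 3) {a b c a' b' c' : Ω}
    (hab : a ≠ b) (hac : a ≠ c) (hbc : b ≠ c) (hab' : a' ≠ b') (hac' : a' ≠ c') (hbc' : b' ≠ c') :
    ∃ g ∈ K, g a = a' ∧ g b = b' ∧ g c = c' := by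
  have inj : ∀ {a b c : Ω}, a ≠ b → a ≠ c → b ≠ c → Function.Injective ![a, b, c] := by
    intro a b c h1 h2 h3 i j h
    fin_cases i <;> fin_cases j <;> simp_all [eq_comm]
  obtain ⟨g, hg⟩ := h3.exists_smul_eq ⟨_, inj hab hac hbc⟩ ⟨_, inj hab' hac' hbc'⟩
  have e : ∀ i, (g : Perm Ω) (![a, b, c] i) = ![a', b', c'] i := fun i =>
    congrArg (fun x : Fin 3 ↪ Ω => x i) hg
  exact ⟨g, g.2, e 0, e 1, e 2⟩

theorem md_comm (u v : Perm Ω) :
    ((v * u)⁻¹ * (u * v)).support.card ≤ 3 * (u.support ∩ v.support).card := by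
  set D := u.support ∩ v.support with hD
  have hsub : ((v * u)⁻¹ * (u * v)).support ⊆
      D ∪ (D.map u⁻¹.toEmbedding ∪ D.map v⁻¹.toEmbedding) := by
    intro p hp
    rw [mem_support, Perm.mul_apply, Ne, Perm.inv_eq_iff_eq] at hp
    simp only [Perm.mul_apply] at hp
    simp only [Finset.mem_union, Finset.mem_map_equiv, hD, Finset.mem_inter, mem_support]
    change (u p ≠ p ∧ v p ≠ p) ∨ (u (u p) ≠ u p ∧ v (u p) ≠ u p) ∨ (u (v p) ≠ v p ∧ v (v p) ≠ v p)
    by_cases hu : u p = p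
    · by_cases hv : v p = p
      · exact absurd (by rw [hu, hv, hu]) hp
      · exact Or.inr (Or.inr ⟨by rwa [hu] at hp, fun e => hv (v.injective e)⟩)
    · by_cases hv : v p = p
      · exact Or.inr (Or.inl ⟨fun e => hu (u.injective e), by rw [hv] at hp; exact Ne.symm hp⟩)
      · exact Or.inl ⟨hu, hv⟩
  refine (Finset.card_le_card hsub).trans ?_
  have h1 := Finset.card_union_le D (D.map u⁻¹.toEmbedding ∪ D.map v⁻¹.toEmbedding)
  have h2 := Finset.card_union_le (D.map u⁻¹.toEmbedding) (D.map v⁻¹.toEmbedding)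
  simp only [Finset.card_map] at h2
  omega

/-- averaging over the elements with `α ↦ α`, `β ↦ γ` -/
theorem md_avg (h3 : MulAction.IsMultiplyPretransitive K Ω 3) (h4 : 3 ≤ Fintype.card Ω)
    {α β γ : Ω} (hab : α ≠ β) (hac : α ≠ γ) (S T : Finset Ω) (hS : α ∉ S) (hS' : β ∉ S)
    (hT : α ∉ T) (hT' : γ ∉ T) :
    ∃ g ∈ K, g α = α ∧ g β = γ ∧
      (S.filter fun δ => g δ ∈ T).card * (Fintype.card Ω - 2) ≤ S.card * T.card := by
  classical
  set G0 := Finset.univ.filter fun g : Perm Ω => g ∈ K ∧ g α = α ∧ g β = γ with hG0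
  have mem : ∀ g, g ∈ G0 ↔ g ∈ K ∧ g α = α ∧ g β = γ := fun g => by simp [hG0]
  have hne : G0.Nonempty := by
    obtain ⟨x, hx⟩ : ∃ x, x ∉ ({α, β} : Finset Ω) := by
      by_contra! hh
      have h1 := Finset.card_le_card (show Finset.univ ⊆ ({α, β} : Finset Ω) from fun x _ => hh x)
      have h2 : ({α, β} : Finset Ω).card ≤ 2 := Finset.card_le_two
      rw [Finset.card_univ] at h1; omega
    obtain ⟨y, hy⟩ : ∃ y, y ∉ ({α, γ} : Finset Ω) := by
      by_contra! hh
      have h1 := Finset.card_le_card (show Finset.univ ⊆ ({α, γ} : Finset Ω) from fun x _ => hh x)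
      have h2 : ({α, γ} : Finset Ω).card ≤ 2 := Finset.card_le_two
      rw [Finset.card_univ] at h1; omega
    simp only [Finset.mem_insert, Finset.mem_singleton, not_or] at hx hy
    obtain ⟨g, hg, h1, h2, -⟩ := md_three h3 hab (Ne.symm hx.1) (Ne.symm hx.2) hac (Ne.symm hy.1)
      (Ne.symm hy.2)
    exact ⟨g, (mem g).2 ⟨hg, h1, h2⟩⟩
  -- equidistribution
  have hle : ∀ δ ε ε', ε ≠ α → ε ≠ γ → ε' ≠ α → ε' ≠ γ →
      (G0.filter fun g => g δ = ε).card ≤ (G0.filter fun g => g δ = ε').card := by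
    intro δ ε ε' h1 h2 h1' h2'
    obtain ⟨k, hk, k1, k2, k3⟩ := md_three h3 hac h1.symm h2.symm hac h1'.symm h2'.symm
    refine Finset.card_le_card_of_injOn (fun g => k * g) ?_ fun g _ g' _ e => mul_left_cancel e
    intro g hg
    simp only [Finset.coe_filter, mem, Set.mem_ofPred_eq] at hg ⊢
    obtain ⟨⟨a1, a2, a3⟩, a4⟩ := hg
    exact ⟨⟨K.mul_mem hk a1, by simp [a2, k1], by simp [a3, k2]⟩, by simp [a4, k3]⟩
  have hfib : ∀ δ ε, δ ≠ α → δ ≠ β → ε ≠ α → ε ≠ γ →
      (G0.filter fun g => g δ = ε).card * (Fintype.card Ω - 2) ≤ G0.card := by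
    intro δ ε hδ hδ' h1 h2
    have hc : (({α, γ} : Finset Ω)ᶜ).card = Fintype.card Ω - 2 := by
      rw [Finset.card_compl, Finset.card_pair hac]
    have hmaps : ∀ g ∈ G0, g δ ∈ ({α, γ} : Finset Ω)ᶜ := by
      intro g hg
      obtain ⟨-, a2, a3⟩ := (mem g).1 hg
      simp only [Finset.mem_compl, Finset.mem_insert, Finset.mem_singleton, not_or]
      exact ⟨fun e => hδ (g.injective (e.trans a2.symm)), fun e => hδ' (g.injective (e.trans a3.symm))⟩
    rw [Finset.card_eq_sum_card_fiberwise hmaps, ← hc, mul_comm, ← smul_eq_mul, ← Finset.sum_const]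
    refine Finset.sum_le_sum fun ε' hε' => ?_
    simp only [Finset.mem_compl, Finset.mem_insert, Finset.mem_singleton, not_or] at hε'
    exact hle δ ε ε' h1 h2 hε'.1 hε'.2
  have hsum : ∑ g ∈ G0, (S.filter fun δ => g δ ∈ T).card * (Fintype.card Ω - 2)
      ≤ ∑ _g ∈ G0, S.card * T.card := by
    rw [← Finset.sum_mul]
    have e : ∑ g ∈ G0, (S.filter fun δ => g δ ∈ T).card
        = ∑ δ ∈ S, ∑ ε ∈ T, (G0.filter fun g => g δ = ε).card := by
      simp only [Finset.card_filter]
      rw [Finset.sum_comm]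
      refine Finset.sum_congr rfl fun δ _ => ?_
      rw [Finset.sum_comm]
      refine Finset.sum_congr rfl fun g _ => ?_
      simp
    rw [e, Finset.sum_mul, Finset.sum_const, smul_eq_mul]
    calc ∑ δ ∈ S, (∑ ε ∈ T, (G0.filter fun g => g δ = ε).card) * (Fintype.card Ω - 2)
        ≤ ∑ _δ ∈ S, T.card * G0.card := by
          refine Finset.sum_le_sum fun δ hδ => ?_
          rw [Finset.sum_mul, ← smul_eq_mul, ← Finset.sum_const]
          exact Finset.sum_le_sum fun ε hε => hfib δ ε (by rintro rfl; exact hS hδ)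
            (by rintro rfl; exact hS' hδ) (by rintro rfl; exact hT hε) (by rintro rfl; exact hT' hε)
      _ = _ := by rw [Finset.sum_const, smul_eq_mul]; ring
  obtain ⟨g, hg, h⟩ := Finset.exists_le_of_sum_le hne hsum
  obtain ⟨a1, a2, a3⟩ := (mem g).1 hg
  exact ⟨g, a1, a2, a3, h⟩

theorem md_arith {μ n c : ℕ} (h4 : 4 ≤ μ) (hn : 100 ≤ n) (hs : 10 * μ ≤ 3 * n)
    (hc : c * (n - 2) ≤ (μ - 2) * (μ - 1)) (h : μ ≤ 3 * (c + 1)) : False := by
  obtain ⟨d, rfl⟩ : ∃ d, μ = d + 4 := ⟨μ - 4, by omega⟩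
  obtain ⟨e, rfl⟩ : ∃ e, n = e + 2 := ⟨n - 2, by omega⟩
  have h1 : d + 4 - 2 = d + 2 := by omega
  have h2 : d + 4 - 1 = d + 3 := by omega
  rw [h1, h2, Nat.add_sub_cancel] at hc
  have h3 : (d + 1) * e ≤ 3 * ((d + 2) * (d + 3)) := by nlinarith
  rcases Nat.lt_or_ge d 6 with hd | hd
  · have : (d + 1) * 98 ≤ (d + 1) * e := Nat.mul_le_mul_left _ (by omega)
    interval_cases d <;> omega
  · have : (d + 1) * (10 * d + 34) ≤ (d + 1) * (3 * e) := Nat.mul_le_mul_left _ (by omega)
    nlinarith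

/-- MD: a 3-transitive group with an element moving at most 3/10 of at least 100 points contains
the alternating group -/
theorem mindeg (h3 : MulAction.IsMultiplyPretransitive K Ω 3) (hn : 100 ≤ Fintype.card Ω)
    {z : Perm Ω} (hz : z ∈ K) (hz1 : z ≠ 1) (hs : 10 * z.support.card ≤ 3 * Fintype.card Ω) :
    alternatingGroup Ω ≤ K := by
  classical
  obtain ⟨z, hz', hmin⟩ := Finset.exists_min_image
    (Finset.univ.filter fun g : Perm Ω => g ∈ K ∧ g ≠ 1) (fun g => g.support.card)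
    ⟨z, by simp [hz, hz1]⟩
  replace hs := (Nat.mul_le_mul_left 10 (hmin _ (by simp [hz, hz1]))).trans hs
  simp only [Finset.mem_filter, Finset.mem_univ, true_and] at hz' hmin
  clear hz hz1
  obtain ⟨hz, hz1⟩ := hz'
  by_cases h4 : z.support.card < 4
  · exact (Cfsg.Agent.S0711.result K le_rfl (by omega) h3 z hz hz1 (by omega)).2
  exfalso
  obtain ⟨α, hα⟩ := Finset.card_pos.1 (show 0 < z.support.card by omega)
  have hβ : z α ∈ z.support := apply_mem_support.2 hα
  have hab : α ≠ z α := Ne.symm (mem_support.1 hα)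
  obtain ⟨γ, hγ⟩ : ∃ γ, γ ∉ z.support := by
    by_contra! hh
    have h1 := Finset.card_le_card (show Finset.univ ⊆ z.support from fun x _ => hh x)
    rw [Finset.card_univ] at h1; omega
  have hac : α ≠ γ := by rintro rfl; exact hγ hα
  obtain ⟨g, hg, g1, g2, hc⟩ := md_avg h3 (by omega) hab hac ((z.support.erase α).erase (z α))
    (z.support.erase α) (by simp) (by simp) (by simp) (by simp [hγ])
  rw [Finset.card_erase_of_mem (Finset.mem_erase.2 ⟨hab.symm, hβ⟩), Finset.card_erase_of_mem hα]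
    at hc
  set u := g * z * g⁻¹ with hu
  have huK : u ∈ K := K.mul_mem (K.mul_mem hg hz) (K.inv_mem hg)
  have hu' : ∀ p, u (g p) = g (z p) := fun p => by simp [hu]
  have hne : (u * z)⁻¹ * (z * u) ≠ 1 := by
    intro e
    rw [inv_mul_eq_one] at e
    have := congrArg (fun w : Perm Ω => w α) e
    have h1 : u α = γ := by rw [← g1, hu', g2]
    simp only [Perm.mul_apply, h1, notMem_support.1 hγ] at this
    exact hab (u.injective (h1.trans this.symm))
  have h1 := hmin _ ⟨K.mul_mem (K.inv_mem (K.mul_mem huK hz)) (K.mul_mem hz huK), hne⟩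
  have h2 := md_comm z u
  have h3' : (z.support ∩ u.support).card ≤
      (((z.support.erase α).erase (z α)).filter fun δ => g δ ∈ z.support.erase α).card + 1 := by
    have hsub : z.support ∩ u.support ⊆ insert α
        ((((z.support.erase α).erase (z α)).filter fun δ => g δ ∈ z.support.erase α).map
          g.toEmbedding) := by
      intro p hp
      obtain ⟨p, rfl⟩ := g.surjective p
      rw [Finset.mem_inter, mem_support (f := u), hu', g.injective.ne_iff] at hp
      rw [Finset.mem_insert]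
      by_cases hpα : g p = α
      · exact Or.inl hpα
      · refine Or.inr (Finset.mem_map_of_mem g.toEmbedding ?_)
        simp only [Finset.mem_filter, Finset.mem_erase]
        refine ⟨⟨?_, ?_, mem_support.2 hp.2⟩, hpα, hp.1⟩
        · rintro rfl; exact hγ (g2 ▸ hp.1)
        · rintro rfl; exact hpα g1
    refine (Finset.card_le_card hsub).trans ((Finset.card_insert_le _ _).trans ?_)
    rw [Finset.card_map]
  rw [Nat.sub_sub] at hc
  exact md_arith (by omega) hn hs hc (by omega)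

end CfsgLib.WrP
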