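import Mathlib
import Cfsg.Agent.Lib.WrP.Defs
import Cfsg.Agent.S4220

set_option autoImplicit false
set_option linter.unusedSectionVars false

namespace CfsgLib.WrP

open Equiv Equiv.Perm

variable {Ω : Type*} [Fintype Ω] [DecidableEq Ω] {K : Subgroup (Perm Ω)}

theorem num_big {m h t : ℕ} (h5 : 5 ≤ m) (hh : 25 * m ≤ h) (ht : 3 * h ≤ 4 * (t - 1)) :
    ∃ q p r, p.Prime ∧ m * h = q * p + r ∧ 1 ≤ q ∧ q < p ∧ q < r ∧ ¬ (q = 1 ∧ r = 2) ∧
      r + 1 ≤ t := by
  obtain ⟨p, hp, hp1, hp2⟩ := Nat.exists_prime_lt_and_le_two_mul (h / 4) (by omega)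
  have hp0 : 0 < p := hp.pos
  have hmh : 5 * h ≤ m * h := Nat.mul_le_mul_right h h5
  have hm4 : 4 * m ≤ h := by omega
  set N := m * h - 4 * m with hN
  have hdm := Nat.div_add_mod N p
  have hlt := Nat.mod_lt N hp0
  have hq : N / p < 4 * m := by
    rw [Nat.div_lt_iff_lt_mul hp0]
    have : h < 4 * p := by omega
    have : m * h < m * (4 * p) := Nat.mul_lt_mul_of_pos_left this (by omega)
    have e : m * (4 * p) = 4 * m * p := by ring
    omega
  have hq1 : 1 ≤ N / p := by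
    rw [Nat.le_div_iff_mul_le hp0]; omega
  refine ⟨N / p, p, N % p + 4 * m, hp, ?_, hq1, by omega, by omega, by omega, by omega⟩
  rw [mul_comm (N / p) p]; omega

theorem num_u {m h u : ℕ} (hh : 16 * m ≤ h) (hu : u ^ 2 + h ≤ m * h) : 4 * u ≤ h := by
  by_contra hc
  have h1 : h < 4 * u := by omega
  have h2 : h * h ≤ (4 * u) * (4 * u) := Nat.mul_le_mul h1.le h1.le
  have h3 : 16 * m * h ≤ h * h := Nat.mul_le_mul_right h hh
  nlinarith

/-- NUM: the arithmetic for Miller's theorem -/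
theorem num {m k t : ℕ} (h5 : 5 ≤ m) (h9 : m ≤ 9) (hk : 2 ≤ k)
    (ht : t = m ^ (k - 1) + 1 ∨
      (3 ≤ k ∧ t < m ^ (k - 1) ∧ (m ^ (k - 1) + 1 - t) ^ 2 + m ^ (k - 1) ≤ m ^ k)) :
    ∃ q p r, p.Prime ∧ m ^ k = q * p + r ∧ 1 ≤ q ∧ q < p ∧ q < r ∧ ¬ (q = 1 ∧ r = 2) ∧
      r + 1 ≤ t := by
  rcases Nat.lt_or_ge k 3 with h2 | h3
  · obtain rfl : k = 2 := by omega
    have ht' : t = m + 1 := by
      rcases ht with h | h
      · simpa using h
      · omega
    subst ht'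
    interval_cases m
    · exact ⟨2, 11, 3, by norm_num⟩
    · exact ⟨1, 31, 5, by norm_num⟩
    · exact ⟨1, 43, 6, by norm_num⟩
    · exact ⟨1, 61, 3, by norm_num⟩
    · exact ⟨1, 73, 8, by norm_num⟩
  rcases Nat.lt_or_ge k 4 with h3' | h4
  · obtain rfl : k = 3 := by omega
    have key : ∀ h n b : ℕ, n < (h + 1 - b) ^ 2 + h → b ≤ h →
        (t = h + 1 ∨ (3 ≤ 3 ∧ t < h ∧ (h + 1 - t) ^ 2 + h ≤ n)) → b < t := by
      intro h n b h1 h2 h3
      rcases h3 with h3 | ⟨-, -, h3⟩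
      · omega
      · by_contra hc
        have : (h + 1 - b) ^ 2 ≤ (h + 1 - t) ^ 2 := Nat.pow_le_pow_left (by omega) 2
        omega
    interval_cases m
    · have := key _ _ 12 (by norm_num) (by norm_num) ht
      exact ⟨1, 113, 12, by norm_num, by norm_num, by omega, by omega, by omega, by omega, by omega⟩
    · have := key _ _ 12 (by norm_num) (by norm_num) ht
      exact ⟨1, 211, 5, by norm_num, by norm_num, by omega, by omega, by omega, by omega, by omega⟩
    · have := key _ _ 12 (by norm_num) (by norm_num) ht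
      exact ⟨1, 337, 6, by norm_num, by norm_num, by omega, by omega, by omega, by omega, by omega⟩
    · have := key _ _ 12 (by norm_num) (by norm_num) ht
      exact ⟨1, 509, 3, by norm_num, by norm_num, by omega, by omega, by omega, by omega, by omega⟩
    · have := key _ _ 12 (by norm_num) (by norm_num) ht
      exact ⟨1, 719, 10, by norm_num, by norm_num, by omega, by omega, by omega, by omega, by omega⟩
  · have hmk : m ^ k = m * m ^ (k - 1) := by
      rw [← pow_succ']; congr 1; omega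
    have hh : 25 * m ≤ m ^ (k - 1) := by
      have h1 : m ^ 3 ≤ m ^ (k - 1) := Nat.pow_le_pow_right (by omega) (by omega)
      have h2 : 25 * m ≤ m ^ 3 := by
        have : 5 * 5 ≤ m * m := Nat.mul_le_mul h5 h5
        nlinarith
      omega
    rw [hmk] at ht ⊢
    refine num_big h5 hh ?_
    rcases ht with ht | ⟨-, ht, hu⟩
    · omega
    · have := num_u (by omega) hu
      omega

theorem num3 {m k t : ℕ} (h5 : 5 ≤ m) (hk : 2 ≤ k)
    (ht : t = m ^ (k - 1) + 1 ∨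
      (3 ≤ k ∧ t < m ^ (k - 1) ∧ (m ^ (k - 1) + 1 - t) ^ 2 + m ^ (k - 1) ≤ m ^ k)) : 3 ≤ t := by
  have hh : m ≤ m ^ (k - 1) := Nat.le_self_pow (by omega) m
  rcases ht with ht | ⟨h3, ht, hu⟩
  · omega
  · have hmk : m ^ k = m * m ^ (k - 1) := by
      rw [← pow_succ']; congr 1; omega
    have h1 : m ^ 2 ≤ m ^ (k - 1) := Nat.pow_le_pow_right (by omega) (by omega)
    rw [hmk] at hu
    generalize m ^ (k - 1) = h at *
    by_contra hc
    obtain ⟨d, rfl⟩ : ∃ d, h = d + 1 := ⟨h - 1, by omega⟩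
    have : d ^ 2 ≤ (d + 1 + 1 - t) ^ 2 := Nat.pow_le_pow_left (by omega) 2
    have h2 : 5 * m ≤ d + 1 := by nlinarith
    nlinarith

theorem miller {m k t : ℕ} (h5 : 5 ≤ m) (h9 : m ≤ 9) (hk : 2 ≤ k) (hn : Fintype.card Ω = m ^ k)
    (ht : t = m ^ (k - 1) + 1 ∨
      (3 ≤ k ∧ t < m ^ (k - 1) ∧ (m ^ (k - 1) + 1 - t) ^ 2 + m ^ (k - 1) ≤ m ^ k))
    (hK : MulAction.IsMultiplyPretransitive K Ω t) : alternatingGroup Ω ≤ K := by
  obtain ⟨q, p, r, hp, e, h1, h2, h3, h4, hr⟩ := num h5 h9 hk ht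
  have hlt : m ^ (k - 1) < m ^ k := Nat.pow_lt_pow_right (by omega) (by omega)
  have htn : t ≤ Nat.card Ω := by rw [Nat.card_eq_fintype_card, hn]; omega
  exact Cfsg.Agent.S4220.result K hp (hn.trans e) h1 h2 h3 h4
    (MulAction.isMultiplyPretransitive_of_le hr htn)

end CfsgLib.WrP
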