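import Mathlib
import Cfsg.Agent.Lib.WrP.JH
import Cfsg.Agent.Lib.WrP.JT
import Cfsg.Agent.Lib.WrP.JG
import Cfsg.Agent.Lib.WrP.MD
import Cfsg.Agent.Lib.WrP.Num

set_option autoImplicit false
set_option linter.unusedSectionVars false

namespace CfsgLib.WrP

open Equiv Equiv.Perm

variable {ι X : Type} [Fintype ι] [DecidableEq ι] [Fintype X] [DecidableEq X]
variable {K : Subgroup (Perm (ι → X))}

/-- the grid picture for two coordinates -/
def jmE {i j : ι} (hij : i ≠ j) (hall : ∀ l, l = i ∨ l = j) : X × X ≃ (ι → X) where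
  toFun p := fun l => if l = i then p.1 else p.2
  invFun f := (f i, f j)
  left_inv p := by simp [hij.symm]
  right_inv f := by
    funext l
    rcases hall l with rfl | rfl
    · simp
    · simp [hij.symm]

theorem jm_two (hK : Hyp K) (h2 : Fintype.card ι = 2) {i : ι} {a : X} (h : JS K (Hp i a)) {t : ℕ}
    (ht2 : 2 ≤ t) (ht : t < Fintype.card X) (hS : Stei K (Fintype.card X) t) : False := by
  obtain ⟨j, hj⟩ : ∃ j, j ∉ ({i} : Finset ι) := exists_notMem (by simp; omega)
  have hij : i ≠ j := fun e => hj (by simp [e])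
  have hall : ∀ l, l = i ∨ l = j := by
    intro l
    by_contra! hl
    have : ({i, j, l} : Finset ι).card = 3 := by
      rw [Finset.card_eq_three]; exact ⟨i, j, l, hij, hl.1.symm, hl.2.symm, rfl⟩
    have h1 := Finset.card_le_univ ({i, j, l} : Finset ι)
    omega
  set e : X × X ≃ (ι → X) := jmE hij hall with he
  have ei : ∀ p, e p i = p.1 := fun p => by simp [he, jmE]
  have ej : ∀ p, e p j = p.2 := fun p => by simp [he, jmE, hij.symm]
  have esi : ∀ f, (e.symm f).1 = f i := fun f => rfl
  have esj : ∀ f, (e.symm f).2 = f j := fun f => rfl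
  refine grid hK.five (fun B => JS K (B.map e.toEmbedding) ∧ B.card = Fintype.card X) ht2 ht
    (fun B hB => hB.2) (fun b => ⟨?_, by simp⟩) (fun b => ⟨?_, by simp⟩) ?_ ?_
  · have : (({b} : Finset X) ×ˢ (Finset.univ : Finset X)).map e.toEmbedding = Hp i b := by
      ext f; rw [Finset.mem_map_equiv, Finset.mem_product, esi]; simp
    rw [this]; exact js_all hK h i b
  · have : ((Finset.univ : Finset X) ×ˢ ({b} : Finset X)).map e.toEmbedding = Hp j b := by
      ext f; rw [Finset.mem_map_equiv, Finset.mem_product, esj]; simp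
    rw [this]; exact js_all hK h j b
  · rintro B ⟨hB, hc⟩ s s' hs hs'
    refine ⟨?_, by simpa using hc⟩
    have : (B.map (Equiv.prodCongr s s').toEmbedding).map e.toEmbedding
        = (B.map e.toEmbedding).map (act i s * act j s').toEmbedding := by
      rw [Finset.map_map, Finset.map_map]
      congr 1
      ext p l
      rcases hall l with rfl | rfl
      · simp [ei, act_ne hij]
      · simp [ej, act_ne hij.symm]
    rw [this]
    exact hB.map (K.mul_mem (hK.alt i s hs) (hK.alt j s' hs'))
  · intro S hc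
    obtain ⟨B, ⟨hB, hBc, hSB⟩, hu⟩ := hS (S.map e.toEmbedding) (by simpa using hc)
    have hm : (B.map e.symm.toEmbedding).map e.toEmbedding = B := by
      rw [Finset.map_map]; ext f; simp
    refine ⟨B.map e.symm.toEmbedding, ⟨⟨by rwa [hm], by simpa using hBc⟩, fun p hp => ?_⟩, ?_⟩
    · rw [Finset.mem_map_equiv]; exact hSB (Finset.mem_map_of_mem _ hp)
    · rintro B' ⟨⟨hB', hc'⟩, hS'⟩
      have := hu (B'.map e.toEmbedding) ⟨hB', by simpa using hc', Finset.map_subset_map.2 hS'⟩
      rw [← this, Finset.map_map]; ext p; simp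

/-- JM: the Jordan case -/
theorem jordan (hK : Hyp K) (ih : IH ι X) (h2 : 2 ≤ Fintype.card ι) {i : ι} {a : X}
    (h : JS K (Hp i a)) : alternatingGroup (ι → X) ≤ K := by
  have h5 := hK.five
  set m := Fintype.card X with hm
  set k := Fintype.card ι with hk
  have hn : Fintype.card (ι → X) = m ^ k := Fintype.card_fun
  have hH : (Hp i a).card = m ^ (k - 1) := card_Hp i a
  have hmk : m ^ k = m * m ^ (k - 1) := by
    rw [← pow_succ']; congr 1; omega
  have hh : m ≤ m ^ (k - 1) := Nat.le_self_pow (by omega) m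
  have hlt : 2 * m ^ (k - 1) < m ^ k := by rw [hmk]; nlinarith
  obtain ⟨t, ht2, htr, ht⟩ := jt h (by rw [hH, hn]; exact hlt) (by omega) (js_empty hK)
    (α := fun _ => a) (by simp) (js_point hK h _) (js_hom hK ih h2 h)
  have ht' : t = m ^ (k - 1) + 1 ∨
      (3 ≤ k ∧ t < m ^ (k - 1) ∧ (m ^ (k - 1) + 1 - t) ^ 2 + m ^ (k - 1) ≤ m ^ k) := by
    rcases ht with ht | ⟨ht, hS⟩
    · left; rw [ht, hH]
    · right
      have hf := fisher h ht2 ht (by omega) hS
      rw [hH, hn] at hf
      rw [hH] at ht hS
      refine ⟨?_, ht, hf⟩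
      by_contra h3
      have hk2 : k = 2 := by omega
      rw [hk2] at ht hS
      exact jm_two hK hk2 h ht2 (by simpa using ht) (by simpa using hS)
  by_cases h9 : m ≤ 9
  · exact miller h5 h9 h2 hn ht' htr
  · have h3 := num3 h5 h2 ht'
    have htn : t ≤ Nat.card (ι → X) := by
      rw [Nat.card_eq_fintype_card, hn]; omega
    have h3t : MulAction.IsMultiplyPretransitive K (ι → X) 3 :=
      MulAction.isMultiplyPretransitive_of_le h3 htn
    obtain ⟨u, -, v, -, w, -, huv, huw, hvw⟩ :=
      Finset.two_lt_card.1 (show 2 < (Finset.univ : Finset X).card by rw [Finset.card_univ]; omega)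
    have hy := c3_three huv huw hvw
    haveI : Nonempty X := ⟨u⟩
    refine mindeg h3t (by rw [hn, hmk]; nlinarith) (hK.three i hy)
      (fun e => hy.ne_one (act_injective i (by rw [e, map_one]))) ?_
    rw [card_support_act, hy.card_support, hn, hmk, ← hm, ← hk]
    nlinarith

end CfsgLib.WrP
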