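import Mathlib
import Cfsg.Agent.Lib.WrP.Dich

set_option autoImplicit false
set_option linter.unusedSectionVars false

namespace CfsgLib.WrP

open Equiv Equiv.Perm

variable {ι X : Type} [Fintype ι] [DecidableEq ι] [Fintype X] [DecidableEq X]
variable {K : Subgroup (Perm (ι → X))}

/-- N1: an element of `K` that permutes the lines in direction `i` lies in `W` -/
theorem n1 (hK : Hyp K) (h0 : R0 K) (ih : IH ι X) {g : Perm (ι → X)} (hg : g ∈ K) {i : ι}
    (hl : ∀ f f', res i f = res i f' → res i (g f) = res i (g f')) : g ∈ W ι X := by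
  have h5 := hK.five
  obtain ⟨u0, u1, u2, h01, h02, h12⟩ := Fintype.two_lt_card_iff.1 (show 2 < Fintype.card X by omega)
  have e1 : ∀ f, res i (g f) = res i (g (pt i u0 (res i f))) := fun f => hl _ _ (by simp)
  have e2 : Function.Surjective fun ω => res i (g (pt i u0 ω)) := fun ω =>
    ⟨res i (g⁻¹ (pt i u0 ω)), by simp only [← e1]; simp⟩
  let σ := Equiv.ofBijective _ (Finite.surjective_iff_bijective.1 e2)
  have hσ : σ ∈ shadow K i Finset.univ := ⟨g, hg, fun f => ⟨by simp, fun _ => e1 f⟩⟩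
  rcases ih i (shadow K i Finset.univ) (fun ρ hρ =>
    let ⟨s, hs⟩ := hK.cover i ρ hρ; ⟨_, hs, fun f => ⟨by simp, fun _ => res_prodp i s ρ f⟩⟩) with
    h | ⟨h3, h⟩
  · obtain ⟨s, hs⟩ := hK.cover i σ (h hσ)
    obtain ⟨t, ht⟩ := vert hK h0 (K.mul_mem (K.inv_mem hs) hg) (i := i) fun f => σ.injective (by
      rw [← res_prodp i s σ, Perm.mul_apply, Perm.coe_inv, Equiv.apply_symm_apply]; exact e1 f)
    rw [inv_mul_eq_iff_eq_mul.1 ht]
    exact (W ι X).mul_mem (prodp_mem_W i s (h hσ)) (act_mem_W i t)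
  · exfalso
    obtain ⟨j, l, hjl⟩ := Fintype.one_lt_card_iff.1
      (show 1 < Fintype.card {j // j ≠ i} by rw [card_sub]; omega)
    let ω : X → {j // j ≠ i} → X := fun u => Function.update (fun _ => u0) l u
    have hω : ∀ {u v}, u ≠ v → ω u ≠ ω v := fun {u v} h e => h (by simpa [ω] using congrFun e l)
    obtain ⟨k, hk, hr⟩ := h (mem_alternatingGroup.2 (c3_three (hω h01) (hω h02) (hω h12)).sign)
    replace hr : ∀ f, res i (k f) = c3 (ω u0) (ω u1) (ω u2) (res i f) :=
      fun f => (hr f).2 (Finset.mem_univ _)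
    have cl : ∀ f f' : ι → X, f i = f' i → k f i = k f' i := fun f f' e => by
      obtain ⟨f2, e2⟩ := k.surjective (pt i (k f i) (res i (k f')))
      have e3 : res i f2 = res i f' :=
        (c3 (ω u0) (ω u1) (ω u2)).injective (by rw [← hr, ← hr, e2, res_pt])
      by_cases e4 : f2 i = f i
      · rw [← ext_res (e4.trans e) e3, e2, pt_self]
      exfalso
      obtain ⟨a, ha⟩ := exists_notMem (A := {f2 i, f i}) (Finset.card_le_two.trans_lt (by omega))
      obtain ⟨b, hb⟩ := exists_notMem (A := {f2 i, f i, a}) (Finset.card_le_three.trans_lt (by omega))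
      simp only [Finset.mem_insert, Finset.mem_singleton, not_or] at ha hb
      have t3 := c3_three (Ne.symm ha.1) (Ne.symm hb.1) (Ne.symm hb.2.2)
      obtain ⟨s, hs⟩ := vert hK h0 (K.mul_mem (K.mul_mem hk (hK.three i t3)) (K.inv_mem hk)) (i := i)
        fun p => by rw [Perm.mul_apply, Perm.mul_apply, hr, res_act, ← hr, Perm.coe_inv, Equiv.apply_symm_apply]
      have hs' : ∀ p, k (act i (c3 (f2 i) a b) p) = act i s (k p) := fun p => by rw [← hs]; simp
      have e5 := hs' f
      rw [(act_eq_iff i _ f).2 (c3_ne (Ne.symm e4) (Ne.symm ha.2) (Ne.symm hb.2.1)), eq_comm,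
        act_eq_iff] at e5
      have e6 := hs' f2
      rw [(act_eq_iff i s _).2 (by rw [e2, pt_self, e5]), k.injective.eq_iff, act_eq_iff,
        c3_a (Ne.symm ha.1) (Ne.symm hb.1) (Ne.symm hb.2.2)] at e6
      exact ha.1 e6
    have e3 : Function.Injective fun u => k (pt i u (ω u0)) i := fun u v e => by
      have := k.injective (ext_res (i := i) e (by rw [hr, hr, res_pt, res_pt]))
      simpa using congrFun this i
    let τ := Equiv.ofBijective _ (Finite.injective_iff_bijective.1 e3)
    have hτ : ∀ f, k f i = τ (f i) := fun f => cl _ _ (by simp)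
    have := h0 _ (K.mul_mem (hK.alt i (τ * τ)⁻¹ (by simp)) (K.mul_mem hk hk)) j u1 (fun f hf => by
      have n : ∀ u, res i f ≠ ω u := fun u e => h01 (by simpa [ω, hjl, hf] using (congrFun e j).symm)
      refine ext_res (i := i) ?_ ?_
      · rw [Perm.mul_apply, act_self, Perm.mul_apply, hτ, hτ, ← Perm.mul_apply τ τ,
          Perm.coe_inv, Equiv.symm_apply_apply]
      · rw [Perm.mul_apply, res_act, Perm.mul_apply, hr, hr, c3_ne (n _) (n _) (n _),
          c3_ne (n _) (n _) (n _)]) (pt i u0 (ω u0))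
    have e4 : res i ((act i (τ * τ)⁻¹ * (k * k)) (pt i u0 (ω u0))) l = pt i u0 (ω u0) l :=
      res_eq_iff.1 this l fun e => hjl (Subtype.ext e).symm
    rw [Perm.mul_apply, res_act, Perm.mul_apply, hr, hr, res_pt,
      c3_a (hω h01) (hω h02) (hω h12), c3_b (hω h01) (hω h02) (hω h12), pt_coe] at e4
    exact h02 (by simpa [ω] using e4.symm)

end CfsgLib.WrP
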