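import Mathlib
import Cfsg.Agent.Lib.WrP.Defs

set_option autoImplicit false
set_option linter.unusedSectionVars false

namespace CfsgLib.WrP

open Equiv Equiv.Perm

variable {ι X : Type} [Fintype ι] [DecidableEq ι] [Fintype X] [DecidableEq X]
variable {K : Subgroup (Perm (ι → X))}

/-- N3: if `g` conjugates the three-cycles on a four-set `A` of the coordinate `i` into
coordinate groups, then it maps the hyperplanes `f i = c`, `c ∈ A`, onto hyperplanes, all in the
same direction -/
theorem n3 {g : Perm (ι → X)} {i : ι} {A : Finset X} (hA : A.card = 4)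
    (h : ∀ y : Perm X, y.IsThreeCycle → y.support ⊆ A → ∃ j s, g * act i y * g⁻¹ = act j s) :
    ∃ j, ∀ c ∈ A, ∃ b, ∀ f, g f j = b ↔ f i = c := by
  have hy : ∀ c ∈ A, ∃ y : Perm X, y.IsThreeCycle ∧ y.support = A.erase c := fun c hc => by
    obtain ⟨u, v, w, h1, h2, h3, e⟩ := Finset.card_eq_three.1
      (show (A.erase c).card = 3 by rw [Finset.card_erase_of_mem hc, hA])
    refine ⟨c3 u v w, c3_three h1 h2 h3, Finset.eq_of_subset_of_card_le (fun d hd => ?_) ?_⟩
    · rw [e]
      by_contra hc
      simp only [Finset.mem_insert, Finset.mem_singleton, not_or] at hc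
      exact mem_support.1 hd (c3_ne hc.1 hc.2.1 hc.2.2)
    · rw [Finset.card_erase_of_mem hc, hA, (c3_three h1 h2 h3).card_support]
  choose! y y1 y2 using hy
  obtain ⟨c0, hc0⟩ := Finset.card_pos.1 (show 0 < A.card by omega)
  have : Nonempty X := ⟨c0⟩
  have : Nonempty ι := ⟨i⟩
  choose! j s hs using fun c (hc : c ∈ A) => h (y c) (y1 c hc) (by
    rw [y2 c hc]; exact Finset.erase_subset _ _)
  have hj : ∀ c ∈ A, j c = j c0 := fun c hc => by
    by_contra hne
    have hcc : c ≠ c0 := fun e => hne (by rw [e])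
    have e := act_comm hne (s c) (s c0)
    rw [← hs c hc, ← hs c0 hc0] at e
    have e1 : y c * y c0 = y c0 * y c := act_injective i (by
      rw [map_mul, map_mul]
      calc _ = g⁻¹ * (g * act i (y c) * g⁻¹ * (g * act i (y c0) * g⁻¹)) * g := by group
        _ = _ := by rw [e]; group)
    have m1 : c ∈ (y c0).support := by rw [y2 c0 hc0]; simp [hc, hcc]
    have m2 : y c c = c := notMem_support.1 (by rw [y2 c hc]; simp)
    have m3 : y c0 c ∈ (y c).support := by
      have := apply_mem_support.2 m1
      rw [y2 c0 hc0] at this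
      rw [y2 c hc]
      exact Finset.mem_erase.2 ⟨mem_support.1 m1, (Finset.mem_erase.1 this).2⟩
    exact mem_support.1 m3 (by rw [← Perm.mul_apply, e1, Perm.mul_apply, m2])
  refine ⟨j c0, fun c hc => ?_⟩
  let D := Finset.univ.filter fun b => ∀ d ∈ A.erase c, b ∈ (s d).support
  have k1 : ∀ d ∈ A, ∀ f, g f (j c0) ∈ (s d).support ↔ f i ∈ A.erase d := fun d hd f => by
    have e : act (j c0) (s d) (g f) = g (act i (y d) f) := by rw [← hj d hd, ← hs d hd]; simp
    rw [← y2 d hd, mem_support, mem_support, ne_eq, ne_eq, ← act_eq_iff (j c0),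
      ← act_eq_iff i (y d), e, g.injective.eq_iff]
  have k2 : ∀ f, g f (j c0) ∈ D ↔ f i = c := fun f => by
    simp only [D, Finset.mem_filter, Finset.mem_univ, true_and]
    refine ⟨fun e => ?_, fun e d hd => (k1 d (Finset.mem_of_mem_erase hd) f).2 ?_⟩
    · by_contra hne
      obtain ⟨d, hd⟩ := Finset.card_pos.1
        (show 0 < (A.erase c).card by rw [Finset.card_erase_of_mem hc]; omega)
      have m := Finset.mem_of_mem_erase ((k1 d (Finset.mem_of_mem_erase hd) f).1 (e d hd))
      simpa using (k1 _ m f).1 (e _ (Finset.mem_erase.2 ⟨hne, m⟩))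
    · rw [e]; exact Finset.mem_erase.2 ⟨(Finset.mem_erase.1 hd).1.symm, hc⟩
  have k3 : (Hp i c).card = (Finset.univ.filter fun f : ι → X => f (j c0) ∈ D).card :=
    Finset.card_equiv g fun f => by simp only [mem_Hp, Finset.mem_filter, Finset.mem_univ, true_and, k2]
  rw [card_Hp, card_filter_mem] at k3
  have k4 : 0 < Fintype.card X ^ (Fintype.card ι - 1) := pow_pos Fintype.card_pos _
  obtain ⟨b, hb⟩ := Finset.card_eq_one.1 (Nat.eq_of_mul_eq_mul_right k4 (k3.symm.trans (one_mul _).symm))
  exact ⟨b, fun f => by rw [← k2, hb, Finset.mem_singleton]⟩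

/-- F3: an element of `W` that is conjugate in the symmetric group to a three-cycle on a
coordinate is a three-cycle on a coordinate -/
theorem f3 (h5 : 5 ≤ Fintype.card X) {g : Perm (ι → X)} {i : ι} {y : Perm X}
    (hy : y.IsThreeCycle) (hw : g * act i y * g⁻¹ ∈ W ι X) :
    ∃ (j : ι) (s : Perm X), s.IsThreeCycle ∧ g * act i y * g⁻¹ = act j s := by
  obtain ⟨π, τ, e⟩ := hw
  have hs : (wr π τ).support.card = 3 * Fintype.card X ^ (Fintype.card ι - 1) := by
    rw [← e, card_support_conj, card_support_act, hy.card_support]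
  have hk : Fintype.card ι = Fintype.card ι - 1 + 1 := by
    have := Fintype.card_pos_iff.2 ⟨i⟩; omega
  have k4 : 0 < Fintype.card X ^ (Fintype.card ι - 1) := pow_pos (by omega) _
  have hf : (wr π τ).supportᶜ.card = (Fintype.card X - 3) * Fintype.card X ^ (Fintype.card ι - 1) := by
    rw [Finset.card_compl, hs, Fintype.card_fun, Nat.sub_mul, hk, pow_succ']; simp
  have hπ : π = 1 := by
    by_contra hne
    obtain ⟨l, hl⟩ : ∃ l, π.symm l ≠ l := by
      by_contra! hc
      exact hne (Equiv.ext fun l => (π.symm_apply_eq.1 (hc l)).symm)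
    have := Finset.card_le_card_of_injOn (s := (wr π τ).supportᶜ) (t := Finset.univ) (res l)
      (fun _ _ => Finset.mem_univ _) fun f hf f' hf' h => by
        simp only [Finset.coe_compl, Set.mem_compl_iff, Finset.mem_coe, notMem_support] at hf hf'
        refine ext_res ?_ h
        rw [← congrFun hf l, ← congrFun hf' l, wr_apply, wr_apply, res_eq_iff.1 h _ hl]
    rw [hf, Finset.card_univ, card_res] at this
    have := Nat.le_of_mul_le_mul_right (this.trans_eq (one_mul _).symm) k4
    omega
  subst hπ
  obtain ⟨j, hj⟩ : ∃ j, τ j ≠ 1 := by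
    by_contra! hc
    rw [show τ = fun _ => 1 from funext hc, wr_one, support_one, Finset.card_empty] at hs
    omega
  have h1 : ∀ l, l ≠ j → τ l = 1 := fun l hl => by
    by_contra hne
    have hp : (wr 1 τ).supportᶜ = Fintype.piFinset fun r => (τ r).supportᶜ := by
      ext f; simp [funext_iff]
    have h2 : ∀ r, τ r ≠ 1 → (τ r).supportᶜ.card ≤ Fintype.card X - 2 := fun r hr => by
      have := two_le_card_support_of_ne_one hr
      rw [Finset.card_compl]; omega
    have ml : l ∈ Finset.univ.erase j := by simp [hl]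
    have h3 := Finset.prod_le_pow_card ((Finset.univ.erase j).erase l)
      (fun r => (τ r).supportᶜ.card) (Fintype.card X) fun r _ => Finset.card_le_univ _
    rw [hp, Fintype.card_piFinset, ← Finset.mul_prod_erase _ _ (Finset.mem_univ j),
      ← Finset.mul_prod_erase _ _ ml] at hf
    have h4 := Finset.card_erase_add_one ml
    rw [Finset.card_erase_of_mem (Finset.mem_univ _), Finset.card_univ] at h4
    rw [← h4, pow_succ] at hf
    have h6 := Nat.mul_le_mul (h2 j hj) (Nat.mul_le_mul (h2 l hne) h3)
    rw [hf] at h6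
    have h7 : 0 < Fintype.card X ^ ((Finset.univ.erase j).erase l).card := pow_pos (by omega) _
    generalize Fintype.card X ^ ((Finset.univ.erase j).erase l).card = q at h6 h7
    obtain ⟨m, hm⟩ := Nat.exists_eq_add_of_le h5
    rw [hm, show 5 + m - 3 = m + 2 by omega, show 5 + m - 2 = m + 3 by omega] at h6
    nlinarith
  have e2 : wr 1 τ = act j (τ j) := by
    ext f l
    by_cases hl : l = j
    · subst hl; simp
    · simp [act_ne hl, h1 l hl]
  rw [e2, card_support_act] at hs
  exact ⟨j, τ j, card_support_eq_three_iff.1 (Nat.eq_of_mul_eq_mul_right k4 hs), e.trans e2⟩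

end CfsgLib.WrP
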