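import Mathlib
import Cfsg.Agent.Lib.WrP.N1
import Cfsg.Agent.Lib.WrP.N3

set_option autoImplicit false
set_option linter.unusedSectionVars false

namespace CfsgLib.WrP

open Equiv Equiv.Perm

variable {ι X : Type} [Fintype ι] [DecidableEq ι] [Fintype X] [DecidableEq X]
variable {K : Subgroup (Perm (ι → X))}

theorem n2_fix (hK : Hyp K) (h0 : R0 K) {g : Perm (ι → X)} (hg : g ∈ K) {i : ι} {e b : X}
    (h : ∀ f, g f i = b ↔ f i = e) {y : Perm X} (hy : y.IsThreeCycle) (he : y e = e) :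
    ∃ s, g * act i y * g⁻¹ = act i s :=
  rigid hK h0 (K.mul_mem (K.mul_mem hg (hK.three i hy)) (K.inv_mem hg)) (a := b) fun f hf => by
    obtain ⟨f, rfl⟩ := g.surjective f
    simp [(act_eq_iff i y f).2 (by rw [(h f).1 hf, he])]

theorem n2_res (hK : Hyp K) (h0 : R0 K) {g : Perm (ι → X)} (hg : g ∈ K) {i : ι} {e b : X}
    (h : ∀ f, g f i = b ↔ f i = e) {c d : X} (hc : c ≠ e) (hd : d ≠ e) (ω : {j // j ≠ i} → X) :
    res i (g (pt i c ω)) = res i (g (pt i d ω)) := by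
  by_cases hcd : c = d
  · rw [hcd]
  obtain ⟨x, hx⟩ := exists_notMem (A := {c, d, e})
    (Finset.card_le_three.trans_lt (by have := hK.five; omega))
  simp only [Finset.mem_insert, Finset.mem_singleton, not_or] at hx
  obtain ⟨s, hs⟩ := n2_fix hK h0 hg h (c3_three hcd (Ne.symm hx.1) (Ne.symm hx.2.1))
    (c3_ne hc.symm hd.symm (Ne.symm hx.2.2))
  have : g (act i (c3 c d x) (pt i c ω)) = act i s (g (pt i c ω)) := by rw [← hs]; simp
  rw [act_pt, c3_a hcd (Ne.symm hx.1) (Ne.symm hx.2.1)] at this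
  rw [this, res_act]

theorem n2_two (hK : Hyp K) (h0 : R0 K) (ih : IH ι X) {g : Perm (ι → X)} (hg : g ∈ K) {i : ι}
    {e e' b b' : X} (hne : e ≠ e') (h : ∀ f, g f i = b ↔ f i = e)
    (h' : ∀ f, g f i = b' ↔ f i = e') : g ∈ W ι X := by
  obtain ⟨x, hx⟩ := exists_notMem (A := {e, e'})
    (Finset.card_le_two.trans_lt (by have := hK.five; omega))
  simp only [Finset.mem_insert, Finset.mem_singleton, not_or] at hx
  have k : ∀ c ω, res i (g (pt i c ω)) = res i (g (pt i x ω)) := fun c ω => by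
    by_cases hc : c = e
    · exact n2_res hK h0 hg h' (hc ▸ hne) hx.2 ω
    · exact n2_res hK h0 hg h hc hx.1 ω
  refine n1 hK h0 ih hg (i := i) fun f f' e => ?_
  rw [← pt_res i f, ← pt_res i f', k, k (f' i), e]

/-- N2: an element of `K` that maps a hyperplane onto a hyperplane lies in `W` -/
theorem n2 (hK : Hyp K) (h0 : R0 K) (ih : IH ι X) {g : Perm (ι → X)} (hg : g ∈ K) {i j : ι}
    {a b : X} (h : ∀ f, g f j = b ↔ f i = a) : g ∈ W ι X := by
  obtain ⟨π, τ, rfl, rfl, hw⟩ := hK.hp_trans i j a b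
  have hg' := K.mul_mem (K.inv_mem hw) hg
  have h1 : ∀ f, ((wr π τ)⁻¹ * g) f i = a ↔ f i = a := fun f => by
    have : τ (π i) (((wr π τ)⁻¹ * g) f i) = g f (π i) := by
      rw [← wr_apply', Perm.mul_apply, Perm.coe_inv, Equiv.apply_symm_apply]
    rw [← h f, ← this, (τ _).injective.eq_iff]
  obtain ⟨A, hA, hc⟩ := Finset.exists_subset_card_eq (s := Finset.univ.erase a) (n := 4) (by
    have := hK.five
    rw [Finset.card_erase_of_mem (Finset.mem_univ _), Finset.card_univ]; omega)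
  obtain ⟨j, hj⟩ := n3 (g := (wr π τ)⁻¹ * g) (i := i) hc fun y hy hs =>
    ⟨i, n2_fix hK h0 hg' h1 hy (notMem_support.1 fun e => by simpa using hA (hs e))⟩
  obtain ⟨c, hc1, d, hd, hcd⟩ := Finset.one_lt_card.1 (show 1 < A.card by omega)
  obtain ⟨b, hb⟩ := hj c hc1
  obtain ⟨b', hb'⟩ := hj d hd
  obtain ⟨π', τ', rfl, hw'⟩ := hK.trans j i
  have := n2_two hK h0 ih (K.mul_mem hw' hg') hcd (b := τ' (π' j) b) (b' := τ' (π' j) b')
    (fun f => by rw [← hb f, Perm.mul_apply, wr_apply', (τ' _).injective.eq_iff])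
    fun f => by rw [← hb' f, Perm.mul_apply, wr_apply', (τ' _).injective.eq_iff]
  exact ((W ι X).mul_mem_cancel_left (inv_mem (wr_mem π τ))).1
    (((W ι X).mul_mem_cancel_left (wr_mem π' τ')).1 this)

end CfsgLib.WrP
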