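import Mathlib
import Cfsg.Agent.Lib.WrP.N2

set_option autoImplicit false
set_option linter.unusedSectionVars false

namespace CfsgLib.WrP

open Equiv Equiv.Perm

variable {ι X : Type} [Fintype ι] [DecidableEq ι] [Fintype X] [DecidableEq X]
variable {K : Subgroup (Perm (ι → X))}

theorem m5_pres {i : ι} {x : Perm X} {g : Perm (ι → X)} (hc : g * act i x = act i x * g) (f : ι → X) :
    g f i ∈ x.support ↔ f i ∈ x.support := by
  have e : g (act i x f) = act i x (g f) := congrArg (fun p : Perm (ι → X) => p f) hc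
  rw [mem_support, mem_support, Ne, Ne, ← act_eq_iff i x (g f), ← act_eq_iff i x f, ← e, g.injective.eq_iff]

theorem m5_res_act {i j : ι} (s : Perm X) {p q : ι → X} (h : res i p = res i q) :
    res i (act j s p) = res i (act j s q) :=
  res_eq_iff.2 fun l hl => by
    by_cases e : l = j
    · subst e; rw [act_self, act_self, res_eq_iff.1 h l hl]
    · rw [act_ne e, act_ne e, res_eq_iff.1 h l hl]

theorem m5_conn (h3 : 3 ≤ Fintype.card X) {i : ι} {P : (ι → X) → Prop}
    (h : ∀ j, j ≠ i → ∀ s : Perm X, sign s = 1 → ∀ f, P f → P (act j s f)) {f0 f : ι → X} (h0 : P f0)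
    (e : f i = f0 i) : P f := by
  have key : ∀ s : Finset ι, i ∉ s → P (s.piecewise f f0) := fun s => by
    induction s using Finset.induction_on with
    | empty => simpa using h0
    | insert j s hj ih =>
      intro hi
      rw [Finset.mem_insert, not_or] at hi
      obtain ⟨σ, h1, h2⟩ := exists_even h3 (s.piecewise f f0 j) (f j)
      have := h j (Ne.symm hi.1) σ h1 _ (ih hi.2)
      rwa [act_apply, h2, ← Finset.piecewise_insert] at this
  have := key (Finset.univ.erase i) (by simp)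
  rwa [show (Finset.univ.erase i).piecewise f f0 = f from funext fun j => by
    by_cases hj : j = i
    · subst hj; simp [e]
    · simp [hj]] at this

theorem m5_compl (h5 : Fintype.card X = 5) {x : Perm X} (hx : x.IsThreeCycle) :
    ∃ a b, a ≠ b ∧ ∀ u, u ∉ x.support ↔ u = a ∨ u = b := by
  obtain ⟨a, b, hab, e⟩ := Finset.card_eq_two.1
    (show x.supportᶜ.card = 2 by rw [Finset.card_compl, h5, hx.card_support])
  exact ⟨a, b, hab, fun u => by rw [← Finset.mem_compl, e]; simp⟩

theorem m5_swap {A : Finset X} {a b : X} (hA : ∀ u, u ∉ A ↔ u = a ∨ u = b) {s : Perm X} (hs : ∀ u ∈ A, s u = u) :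
    s = 1 ∨ s = swap a b := by
  have ha : a ∉ A := (hA a).2 (Or.inl rfl)
  have hb : b ∉ A := (hA b).2 (Or.inr rfl)
  have out : ∀ u, u ∉ A → s u = a ∨ s u = b := fun u hu =>
    (hA _).1 fun h => hu (s.injective (hs _ h) ▸ h)
  by_cases hab : a = b
  · subst hab
    refine Or.inl (Equiv.ext fun u => ?_)
    by_cases hu : u ∈ A
    · exact hs u hu
    · rw [((hA u).1 hu).elim id id]
      exact (out a ha).elim id id
  rcases out a ha with h1 | h1
  · have h2 : s b = b := (out b hb).resolve_left fun h => hab (s.injective (h1.trans h.symm))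
    refine Or.inl (Equiv.ext fun u => ?_)
    by_cases hu : u ∈ A
    · exact hs u hu
    · rcases (hA u).1 hu with rfl | rfl <;> assumption
  · have h2 : s b = a := (out b hb).resolve_right fun h => hab (s.injective (h1.trans h.symm))
    refine Or.inr (Equiv.ext fun u => ?_)
    by_cases hu : u ∈ A
    · rw [hs u hu, swap_apply_of_ne_of_ne (fun e : u = a => ha (e ▸ hu)) fun e : u = b => hb (e ▸ hu)]
    · rcases (hA u).1 hu with rfl | rfl <;> simp [h1, h2]

/-- the elements that centralise `act i x` and fix its non-trivial orbits -/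
def m5C (K : Subgroup (Perm (ι → X))) (i : ι) (x : Perm X) : Subgroup (Perm (ι → X)) where
  carrier := {g | g ∈ K ∧ g * act i x = act i x * g ∧ ∀ f, f i ∈ x.support → res i (g f) = res i f}
  one_mem' := ⟨K.one_mem, by simp, fun _ _ => rfl⟩
  mul_mem' := by
    rintro g g' ⟨h1, h2, h3⟩ ⟨h1', h2', h3'⟩
    refine ⟨K.mul_mem h1 h1', by rw [mul_assoc, h2', ← mul_assoc, h2, mul_assoc], fun f hf => ?_⟩
    rw [Perm.mul_apply, h3 _ ((m5_pres h2' f).2 hf), h3' f hf]
  inv_mem' := by
    rintro g ⟨h1, h2, h3⟩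
    have h2' : g⁻¹ * act i x = act i x * g⁻¹ := (Commute.inv_left h2).eq
    refine ⟨K.inv_mem h1, h2', fun f hf => ?_⟩
    rw [← h3 _ ((m5_pres h2' f).2 hf)]
    simp

theorem m5_pow {i : ι} {x : Perm X} (hx : x.IsThreeCycle) {g : Perm (ι → X)} (hg : g ∈ m5C K i x) {f : ι → X}
    (hf : f i ∈ x.support) : ∃ r : ℕ, g f = (act i x ^ r) f := by
  obtain ⟨r, hr⟩ := hx.isCycle.exists_pow_eq (mem_support.1 hf) (mem_support.1 ((m5_pres hg.2.1 f).2 hf))
  exact ⟨r, by rw [← map_pow]; exact ext_res (i := i) (by rw [act_self, hr]) (by rw [res_act, hg.2.2 f hf])⟩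

theorem m5_app {a g : Perm (ι → X)} (h : g * a = a * g) (r : ℕ) (f : ι → X) : g ((a ^ r) f) = (a ^ r) (g f) :=
  congrArg (fun p : Perm (ι → X) => p f) (Commute.pow_right h r).eq

/-- M5 (kernel): `|X| = 5`; an element of `K` that centralises the three-cycle `act i x` and fixes
its non-trivial orbits lies in `act i` -/
theorem m5ker (hK : Hyp K) (h0 : R0 K) (h5 : Fintype.card X = 5) {i : ι} {x : Perm X}
    (hx : x.IsThreeCycle) {g : Perm (ι → X)} (hg : g ∈ K) (hc : g * act i x = act i x * g)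
    (hv : ∀ f, f i ∈ x.support → res i (g f) = res i f) : ∃ s, g = act i s := by
  have hgC : g ∈ m5C K i x := ⟨hg, hc, hv⟩
  obtain ⟨a, b, hab, hA⟩ := m5_compl h5 hx
  have : Nonempty X := ⟨a⟩
  obtain ⟨c, hcA⟩ : x.support.Nonempty := Finset.card_pos.1 (by rw [hx.card_support]; norm_num)
  have a3 : act i x ^ 3 = 1 := by rw [← map_pow, ← hx.orderOf, pow_orderOf_eq_one, map_one]
  have Z : ∀ z ∈ K, (∀ f : ι → X, f i ∈ x.support → z f = f) → z = 1 ∨ z = act i (swap a b) := fun z hz h => by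
    obtain ⟨s, rfl⟩ := rigid hK h0 hz (i := i) (a := c) fun f hf => h f (hf ▸ hcA)
    rcases m5_swap hA (s := s) (fun u hu => by
      simpa using congrFun (h (fun _ => u) hu) i) with rfl | rfl
    · exact Or.inl (map_one _)
    · exact Or.inr rfl
  have Z2 : ∀ z ∈ K, (∀ f : ι → X, f i ∈ x.support → z f = f) → z * z = 1 := fun z hz h => by
    rcases Z z hz h with rfl | rfl
    · exact mul_one 1
    · rw [← map_mul, swap_mul_self, map_one]
  have Zc : ∀ z ∈ K, (∀ f : ι → X, f i ∈ x.support → z f = f) → ∀ e ∈ m5C K i x, Commute e z := fun z hz h e he => by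
    have h1 := Z (e * z * e⁻¹) (mul_mem (mul_mem he.1 hz) (inv_mem he.1)) fun f hf => by
      rw [Perm.mul_apply, Perm.mul_apply, h _ ((m5_pres (inv_mem he).2.1 f).2 hf)]
      simp
    rcases Z z hz h with rfl | rfl
    · exact Commute.one_right e
    · rcases h1 with h1 | h1
      · rw [mul_inv_eq_one, mul_eq_left] at h1
        rw [h1]
        exact Commute.one_right e
      · exact mul_inv_eq_iff_eq_mul.1 h1
  have cube : ∀ e ∈ m5C K i x, ∀ f : ι → X, f i ∈ x.support → (e ^ 3) f = f := fun e he f hf => by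
    obtain ⟨r, hr⟩ := m5_pow hx he hf
    have : (e ^ 3) f = ((act i x ^ r) ^ 3) f := by
      simp only [pow_succ, pow_zero, one_mul, Perm.mul_apply]
      rw [hr, m5_app he.2.1, hr, m5_app he.2.1, m5_app he.2.1, hr]
    rw [this, ← pow_mul, mul_comm, pow_mul, a3, one_pow, Perm.one_apply]
  have comm : ∀ e ∈ m5C K i x, ∀ e' ∈ m5C K i x, e' ^ 3 = 1 → Commute e e' := fun e he e' he' h3 => by
    have hz : e * e' * e⁻¹ * e'⁻¹ ∈ m5C K i x := mul_mem (mul_mem (mul_mem he he') (inv_mem he)) (inv_mem he')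
    have hf : ∀ f : ι → X, f i ∈ x.support → (e * e' * e⁻¹ * e'⁻¹) f = f := fun f hf => by
      have hf' := (m5_pres (inv_mem (mul_mem he' he)).2.1 f).2 hf
      obtain ⟨r, hr⟩ := m5_pow hx he hf'
      obtain ⟨s, hs⟩ := m5_pow hx he' hf'
      have e1 : e (e' ((e' * e)⁻¹ f)) = e' (e ((e' * e)⁻¹ f)) := by
        rw [hr, hs, m5_app he.2.1, m5_app he'.2.1, hr, hs, ← Perm.mul_apply, ← Perm.mul_apply, ← pow_add,
          ← Perm.mul_apply (act i x ^ r), ← pow_add, add_comm]
        rfl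
      simpa using e1
    have h2 := Z2 _ hz.1 hf
    have h4 := (Zc _ hz.1 hf e' he').symm
    generalize hz' : e * e' * e⁻¹ * e'⁻¹ = z at h2 h4
    have h5 : (z * e') ^ 3 = 1 := by rw [← hz', inv_mul_cancel_right, conj_pow, h3, mul_one, mul_inv_cancel]
    rw [h4.mul_pow, h3, mul_one, pow_succ, pow_two, h2, one_mul] at h5
    rw [h5, mul_inv_eq_one, mul_inv_eq_iff_eq_mul] at hz'
    exact hz'
  let E : Subgroup (Perm (ι → X)) :=
    { carrier := {e | e ∈ m5C K i x ∧ e ^ 3 = 1}
      one_mem' := ⟨one_mem _, one_pow 3⟩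
      mul_mem' := fun {e e'} he he' => ⟨mul_mem he.1 he'.1, by
        rw [(comm e he.1 e' he'.1 he'.2).mul_pow, he.2, he'.2, mul_one]⟩
      inv_mem' := fun {e} he => ⟨inv_mem he.1, by rw [inv_pow, he.2, inv_one]⟩ }
  have : Fact (Nat.Prime 3) := ⟨Nat.prime_three⟩
  have hE : IsPGroup 3 E := fun e => ⟨1, Subtype.ext (by simpa using e.2.2)⟩
  obtain ⟨f0, hf0⟩ := hE.nonempty_fixed_point_of_prime_not_dvd_card (ι → X) (by
    rw [Nat.card_eq_fintype_card, Fintype.card_fun, h5]
    exact fun h => absurd (Nat.prime_three.dvd_of_dvd_pow h) (by norm_num))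
  have fix : ∀ f : ι → X, f i = f0 i → ∀ e ∈ E, e f = f := fun f hf =>
    m5_conn (P := fun f => ∀ e ∈ E, e f = f) (by omega) (fun j hj s hs f hf e he => by
      have hv := hK.alt j s hs
      have h1 : (act j s)⁻¹ * e * act j s ∈ E := by
        refine ⟨⟨mul_mem (mul_mem (inv_mem hv) he.1.1) hv, ?_, fun p hp => ?_⟩, ?_⟩
        · have c1 : Commute (act j s) (act i x) := act_comm hj s x
          exact ((c1.inv_left.mul_left he.1.2.1).mul_left c1).eq
        · rw [Perm.mul_apply, Perm.mul_apply, ← map_inv,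
            m5_res_act _ (he.1.2.2 _ (by rwa [act_ne hj.symm])), map_inv]
          simp
        · rw [show (act j s)⁻¹ * e * act j s = (act j s)⁻¹ * e * (act j s)⁻¹⁻¹ by rw [inv_inv], conj_pow, he.2]
          simp
      have := hf _ h1
      rwa [Perm.mul_apply, Perm.mul_apply, Perm.inv_eq_iff_eq] at this) (fun e he => hf0 ⟨e, he⟩) hf
  have h6 := Z2 _ (pow_mem hg 3) (cube g hgC)
  obtain ⟨s, hs⟩ := rigid hK h0 (pow_mem hg 4) (i := i) (a := f0 i) fun f hf => fix f hf _ ⟨pow_mem hgC 4, by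
    rw [← pow_add] at h6
    rw [← pow_mul, show 4 * 3 = (3 + 3) * 2 by norm_num, pow_mul, h6, one_pow]⟩
  obtain ⟨s', hs'⟩ := rigid hK h0 (pow_mem hg 3) (i := i) (a := c) fun f hf => cube g hgC f (hf ▸ hcA)
  exact ⟨s * s'⁻¹, by rw [map_mul, map_inv, ← hs, ← hs']; group⟩

end CfsgLib.WrP
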