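import Mathlib
import Cfsg.Agent.Lib.WrP.M5

set_option autoImplicit false
set_option linter.unusedSectionVars false

namespace CfsgLib.WrP

open Equiv Equiv.Perm

variable {ι X : Type} [Fintype ι] [DecidableEq ι] [Fintype X] [DecidableEq X]
variable {K : Subgroup (Perm (ι → X))}

/-- `g` centralises `act i x` and induces `σ` on its non-trivial orbits -/
def M5bSh (i : ι) (x : Perm X) (g : Perm (ι → X)) (σ : Perm ({j // j ≠ i} → X)) : Prop :=
  Commute g (act i x) ∧ ∀ f, f i ∈ x.support → res i (g f) = σ (res i f)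

section
variable {i : ι} {x : Perm X} {g g' : Perm (ι → X)} {σ σ' : Perm ({j // j ≠ i} → X)}

theorem M5bSh.mul (h : M5bSh i x g σ) (h' : M5bSh i x g' σ') : M5bSh i x (g * g') (σ * σ') :=
  ⟨h.1.mul_left h'.1, fun f hf => by
    rw [Perm.mul_apply, h.2 _ ((m5_pres h'.1.eq f).2 hf), h'.2 f hf, Perm.mul_apply]⟩

theorem M5bSh.inv (h : M5bSh i x g σ) : M5bSh i x g⁻¹ σ⁻¹ :=
  ⟨h.1.inv_left, fun f hf => by
    rw [Perm.eq_inv_iff_eq, ← h.2 _ ((m5_pres h.1.inv_left.eq f).2 hf)]
    simp⟩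

theorem m5b_act {j : ι} (hj : j ≠ i) (x s : Perm X) : M5bSh i x (act j s) (act ⟨j, hj⟩ s) :=
  ⟨act_comm hj s x, fun f _ => funext fun l => by
    by_cases e : l = ⟨j, hj⟩
    · subst e; simp
    · rw [act_ne e, res_apply, res_apply, act_ne fun h => e (Subtype.ext h)]⟩

theorem m5b_exists (hx : x.IsThreeCycle) (hc : Commute g (act i x)) : ∃ σ, M5bSh i x g σ := by
  obtain ⟨c, hcA⟩ : x.support.Nonempty := Finset.card_pos.1 (by rw [hx.card_support]; norm_num)
  have key : ∀ p q : ι → X, p i ∈ x.support → q i ∈ x.support → res i p = res i q → ∃ r : ℕ, q = (act i x ^ r) p :=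
    fun p q hp hq e => by
      obtain ⟨r, hr⟩ := hx.isCycle.exists_pow_eq (mem_support.1 hp) (mem_support.1 hq)
      exact ⟨r, by rw [← map_pow]; exact ext_res (i := i) (by rw [act_self, hr]) (by rw [res_act, e])⟩
  have inj : Function.Injective fun ω => res i (g (pt i c ω)) := fun ω ω' e => by
    obtain ⟨r, hr⟩ := key _ _ ((m5_pres hc.eq _).2 (by simpa using hcA)) ((m5_pres hc.eq _).2 (by simpa using hcA)) e
    rw [← m5_app hc.eq, g.injective.eq_iff, ← map_pow] at hr
    have := congrArg (res i) hr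
    rw [res_act, res_pt, res_pt] at this
    exact this.symm
  refine ⟨Equiv.ofBijective _ (Finite.injective_iff_bijective.1 inj), hc, fun f hf => ?_⟩
  obtain ⟨r, hr⟩ := key (pt i c (res i f)) f (by simpa using hcA) hf (by simp)
  conv_lhs => rw [hr, m5_app hc.eq, ← map_pow, res_act]
  rfl

theorem m5b_lift (hK : Hyp K) (h5 : Fintype.card X = 5) (hx : x.IsThreeCycle) (hσ : σ ∈ W {j // j ≠ i} X) :
    ∃ w ∈ K, w ∈ W ι X ∧ M5bSh i x w σ := by
  obtain ⟨a, b, hab, hA⟩ := m5_compl h5 hx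
  have key : ∀ t : Perm X, Commute t x → M5bSh i x (prodp i t σ) σ := fun t ht =>
    ⟨by rw [Commute, SemiconjBy, ← prodp_one_right, prodp_mul, prodp_mul, ht.eq, mul_one, one_mul],
      fun f _ => res_prodp i t σ f⟩
  rcases hK.cover' i hσ 1 hab with h | h
  · exact ⟨_, h, prodp_mem_W i _ hσ, key _ (Commute.one_left x)⟩
  · refine ⟨_, h, prodp_mem_W i _ hσ, key _ ?_⟩
    have ha : x a = a := notMem_support.1 ((hA a).2 (Or.inl rfl))
    have hb : x b = b := notMem_support.1 ((hA b).2 (Or.inr rfl))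
    rw [mul_one, Commute, SemiconjBy, mul_swap_eq_swap_mul, ha, hb]

end

theorem m5b_comm {v : Perm X} {a b c : X} (ha : v a = a) (hb : v b = b) (hc : v c = c) : Commute (c3 a b c) v := by
  have key : ∀ p q, v p = p → v q = q → Commute (swap p q) v := fun p q hp hq => by
    rw [Commute, SemiconjBy, mul_swap_eq_swap_mul, hp, hq]
  exact (key a c ha hc).mul_left (key a b ha hb)

/-- M5B: `|X| = 5`; the centraliser in `K` of a three-cycle on a coordinate lies in `W` -/
theorem m5 (hK : Hyp K) (h0 : R0 K) (ih : IH ι X) (h5 : Fintype.card X = 5) {i : ι} {x : Perm X}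
    (hx : x.IsThreeCycle) {g : Perm (ι → X)} (hg : g ∈ K) (hc : g * act i x = act i x * g) :
    g ∈ W ι X := by
  have sh : ∀ g ∈ K, ∀ σ, M5bSh i x g σ → σ ∈ shadow (K ⊓ Subgroup.centralizer {act i x}) i x.support :=
    fun g hg σ h => ⟨g, ⟨hg, Subgroup.mem_centralizer_singleton_iff.2 h.1.eq⟩, fun f => ⟨m5_pres h.1.eq f, h.2 f⟩⟩
  rcases ih i (shadow (K ⊓ Subgroup.centralizer {act i x}) i x.support) (fun σ hσ => by
    obtain ⟨w, hw, -, h⟩ := m5b_lift hK h5 hx hσ
    exact sh w hw σ h) with h | ⟨h3, h⟩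
  · obtain ⟨σ, hσ⟩ := m5b_exists hx hc
    obtain ⟨w, hw, hw', h'⟩ := m5b_lift hK h5 hx (h (sh g hg σ hσ))
    have := h'.inv.mul hσ
    obtain ⟨s, hs⟩ := m5ker hK h0 h5 hx (mul_mem (inv_mem hw) hg) this.1.eq fun f hf => by
      rw [this.2 f hf]; simp
    rw [inv_mul_eq_iff_eq_mul.1 hs]
    exact mul_mem hw' (act_mem_W i s)
  exfalso
  obtain ⟨j, l, hjl⟩ : ∃ j l : {j // j ≠ i}, j ≠ l := Fintype.exists_pair_of_one_lt_card (by rw [card_sub]; omega)
  obtain ⟨c, hcA⟩ : x.support.Nonempty := Finset.card_pos.1 (by rw [hx.card_support]; norm_num)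
  have e := (Fintype.equivFinOfCardEq h5).symm
  obtain ⟨v0, hv1, hv2⟩ : ∃ v0 : Perm X, sign v0 = 1 ∧ ∀ u, v0 u = u ↔ u = e 0 := by
    refine ⟨e.permCongr (swap 1 2 * swap 3 4), by rw [sign_permCongr]; decide, fun u => ?_⟩
    obtain ⟨k, rfl⟩ := e.surjective u
    rw [permCongr_apply, symm_apply_apply, e.injective.eq_iff, e.injective.eq_iff]
    revert k
    decide
  obtain ⟨ω, hω⟩ : ∃ ω : Fin 5 → {j // j ≠ i} → X, ∀ r, ω r = Function.update (fun _ => e 0) l (e r) :=
    ⟨_, fun _ => rfl⟩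
  have ωj : ∀ r, ω r j = e 0 := fun r => by rw [hω, Function.update_of_ne hjl]
  have ωl : ∀ r, ω r l = e r := fun r => by rw [hω, Function.update_self]
  have ωne : ∀ r r', r ≠ r' → ω r ≠ ω r' := fun r r' hr e' =>
    hr (e.injective (by rw [← ωl, ← ωl, e']))
  have n01 := ωne 0 1 (by decide)
  have n02 := ωne 0 2 (by decide)
  have n12 := ωne 1 2 (by decide)
  obtain ⟨g', ⟨hg', hc'⟩, hs⟩ := h (mem_alternatingGroup.2 (c3_three n01 n02 n12).sign)
  have S1 : M5bSh i x g' (c3 (ω 0) (ω 1) (ω 2)) := ⟨Subgroup.mem_centralizer_singleton_iff.1 hc', fun f => (hs f).2⟩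
  have S2 := m5b_act j.2 x v0
  have fx : ∀ r, act j v0 (ω r) = ω r := fun r => (act_eq_iff _ _ _).2 (by rw [ωj, hv2])
  have S3 := ((S1.mul S2).mul S1.inv).mul S2.inv
  rw [(m5b_comm (fx 0) (fx 1) (fx 2)).eq, mul_inv_cancel_right, mul_inv_cancel] at S3
  have hv := hK.alt j v0 hv1
  obtain ⟨s, hs'⟩ := m5ker hK h0 h5 hx (mul_mem (mul_mem (mul_mem hg' hv) (inv_mem hg')) (inv_mem hv)) S3.1.eq S3.2
  rw [mul_inv_eq_iff_eq_mul, mul_inv_eq_iff_eq_mul] at hs'
  have into : ∀ f ∈ Hp (j : ι) (e 0), g' f ∈ Hp (j : ι) (e 0) := fun f hf => by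
    have := congrFun (congrArg (fun p : Perm (ι → X) => p f) hs') j
    simp only [Perm.mul_apply] at this
    rw [(act_eq_iff _ _ _).2 (by rw [mem_Hp.1 hf, hv2]), act_ne j.2, act_self] at this
    exact mem_Hp.2 ((hv2 _).1 this.symm)
  have hW := n2 hK h0 ih hg' (i := j) (j := j) (a := e 0) (b := e 0) fun f =>
    ⟨fun hf => by simpa using perm_symm_on_of_perm_on_finset into (mem_Hp.2 hf), fun hf => mem_Hp.1 (into f (mem_Hp.2 hf))⟩
  have e01 : e 1 ≠ e 0 := e.injective.ne (by decide)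
  have n4 : ∀ r, Function.update (ω 0) j (e 1) ≠ ω r := fun r h => e01 (by rw [← ωj r, ← h, Function.update_self])
  have h1 := hamming_W hW (pt i c (ω 0)) (pt i c (Function.update (ω 0) j (e 1)))
  have r1 := S1.2 (pt i c (ω 0)) (by simpa using hcA)
  have r2 := S1.2 (pt i c (Function.update (ω 0) j (e 1))) (by simpa using hcA)
  rw [res_pt, c3_a n01 n02 n12] at r1
  rw [res_pt, c3_ne (n4 0) (n4 1) (n4 2)] at r2
  have h2 : hammingDist (pt i c (ω 0)) (pt i c (Function.update (ω 0) j (e 1))) ≤ ({(j : ι)} : Finset ι).card :=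
    Finset.card_le_card fun r hr => by
      rw [Finset.mem_singleton]
      by_contra hn
      refine (Finset.mem_filter.1 hr).2 ?_
      by_cases hi : r = i
      · subst hi; simp
      · rw [pt_ne hi, pt_ne hi, Function.update_of_ne fun h => hn (congrArg Subtype.val h)]
  have h4 : ({(j : ι), (l : ι)} : Finset ι).card ≤
      hammingDist (g' (pt i c (ω 0))) (g' (pt i c (Function.update (ω 0) j (e 1)))) :=
    Finset.card_le_card fun r hr => Finset.mem_filter.2 ⟨Finset.mem_univ _, by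
      rcases Finset.mem_insert.1 hr with rfl | hr
      · show res i _ j ≠ res i _ j
        rw [r1, r2, ωj, Function.update_self]
        exact e01.symm
      · rw [Finset.mem_singleton.1 hr]
        show res i _ l ≠ res i _ l
        rw [r1, r2, ωl, Function.update_of_ne hjl.symm, ωl]
        exact e01⟩
  rw [Finset.card_pair fun h => hjl (Subtype.ext h)] at h4
  rw [Finset.card_singleton] at h2
  omega

end CfsgLib.WrP
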