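import Mathlib
import Cfsg.Agent.Lib.WrP.M5B

set_option autoImplicit false
set_option linter.unusedSectionVars false

namespace CfsgLib.WrP

open Equiv Equiv.Perm

variable {ι X : Type} [Fintype ι] [DecidableEq ι] [Fintype X] [DecidableEq X]
variable {K : Subgroup (Perm (ι → X))}

/-- MAX 1: a hyperplane and a `K`-image of a hyperplane with the largest intersection -/
theorem maxp (hK : Hyp K) (h0 : R0 K) (ih : IH ι X) [Nonempty ι] (hn : ¬ K ≤ W ι X) :
    ∃ g ∈ K, g ∉ W ι X ∧ ∃ (i : ι) (a b : X), a ≠ b ∧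
      ∀ y : Perm X, sign y = 1 → y a = a → y b = b → g * act i y * g⁻¹ ∈ W ι X := by
  classical
  obtain ⟨g0, hg0, hg0'⟩ := SetLike.not_le_iff_exists.1 hn
  haveI : Nonempty X := Fintype.card_pos_iff.1 (by have := hK.five; omega)
  let N : Perm (ι → X) × (ι × X) × (ι × X) → ℕ := fun q =>
    (Finset.univ.filter fun f : ι → X => f q.2.1.1 = q.2.1.2 ∧ q.1 f q.2.2.1 = q.2.2.2).card
  obtain ⟨⟨g, ⟨i, a⟩, ⟨l, b⟩⟩, hq, hmax⟩ := Finset.exists_max_image
    (Finset.univ.filter fun q : Perm (ι → X) × (ι × X) × (ι × X) => q.1 ∈ K ∧ q.1 ∉ W ι X) N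
    ⟨(g0, (Classical.arbitrary _, Classical.arbitrary _),
      (Classical.arbitrary _, Classical.arbitrary _)), by simp [hg0, hg0']⟩
  simp only [Finset.mem_filter, Finset.mem_univ, true_and] at hq
  obtain ⟨hg, hgW⟩ := hq
  -- a point of the second set outside the hyperplane
  obtain ⟨γ, hγ, hγa⟩ : ∃ γ : ι → X, g γ l = b ∧ γ i ≠ a := by
    by_contra! hh
    refine hgW (n2 hK h0 ih hg (i := i) (j := l) (a := a) (b := b) fun f => ⟨hh f, fun hf => ?_⟩)
    have hsub : (Hp l b).map g⁻¹.toEmbedding ⊆ Hp i a := by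
      intro p hp
      obtain ⟨p', hp', rfl⟩ := Finset.mem_map.1 hp
      exact mem_Hp.2 (hh _ (by simpa using hp'))
    have := Finset.eq_of_subset_of_card_le hsub (by rw [Finset.card_map, card_Hp, card_Hp])
    have hf' : f ∈ (Hp l b).map g⁻¹.toEmbedding := by rw [this]; simpa using hf
    obtain ⟨p', hp', rfl⟩ := Finset.mem_map.1 hf'
    simpa using hp'
  refine ⟨g, hg, hgW, i, a, γ i, hγa.symm, fun y hy hya hyb => ?_⟩
  by_contra hW
  have hK' : g * act i y * g⁻¹ ∈ K := K.mul_mem (K.mul_mem hg (hK.alt i y hy)) (K.inv_mem hg)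
  have hle := hmax (g * act i y * g⁻¹, (l, b), (l, b)) (by simp [hK', hW])
  simp only [N] at hle
  set J := Finset.univ.filter fun f : ι → X => f i = a ∧ g f l = b with hJ
  have hγJ : γ ∉ J := by simp [hJ, hγa]
  have hsub : (insert γ J).map g.toEmbedding ⊆ Finset.univ.filter
      fun f : ι → X => f l = b ∧ (g * act i y * g⁻¹) f l = b := by
    intro p hp
    obtain ⟨p', hp', rfl⟩ := Finset.mem_map.1 hp
    have h1 : g p' l = b ∧ act i y p' = p' := by
      rcases Finset.mem_insert.1 hp' with rfl | hp'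
      · exact ⟨hγ, (act_eq_iff i y _).2 hyb⟩
      · simp only [hJ, Finset.mem_filter, Finset.mem_univ, true_and] at hp'
        exact ⟨hp'.2, (act_eq_iff i y _).2 (by rw [hp'.1, hya])⟩
    rw [Finset.mem_filter]
    exact ⟨Finset.mem_univ _, h1.1, by simp [h1.1, h1.2]⟩
  have := Finset.card_le_card hsub
  rw [Finset.card_map, Finset.card_insert_of_notMem hγJ] at this
  omega

/-- MAX 2: the non-Jordan case -/
theorem nonJ (hK : Hyp K) (h0 : R0 K) (ih : IH ι X) [Nonempty ι] : K ≤ W ι X := by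
  by_contra hn
  obtain ⟨g, hg, hgW, i, a, b, hab, h⟩ := maxp hK h0 ih hn
  have h5 := hK.five
  have hc : (({a, b} : Finset X)ᶜ).card = Fintype.card X - 2 := by
    rw [Finset.card_compl, Finset.card_pair hab]
  have hfix : ∀ y : Perm X, y.IsThreeCycle → y.support ⊆ ({a, b} : Finset X)ᶜ →
      ∃ (j : ι) (s : Perm X), s.IsThreeCycle ∧ g * act i y * g⁻¹ = act j s := by
    intro y hy hs
    refine f3 h5 hy (h y hy.sign ?_ ?_)
    · by_contra e; simpa using hs (mem_support.2 e)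
    · by_contra e; simpa using hs (mem_support.2 e)
  by_cases h6 : 6 ≤ Fintype.card X
  · obtain ⟨A, hA, hA4⟩ := Finset.exists_subset_card_eq (s := ({a, b} : Finset X)ᶜ) (n := 4)
      (by omega)
    obtain ⟨j, hj⟩ := n3 (g := g) (i := i) hA4 fun y hy hs => by
      obtain ⟨j, s, -, e⟩ := hfix y hy (hs.trans hA)
      exact ⟨j, s, e⟩
    obtain ⟨c, hc⟩ := Finset.card_pos.1 (show 0 < A.card by omega)
    obtain ⟨d, hd⟩ := hj c hc
    exact hgW (n2 hK h0 ih hg hd)
  · obtain ⟨u, hu, v, hv, w, hw, huv, huw, hvw⟩ :=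
      Finset.two_lt_card.1 (show 2 < (({a, b} : Finset X)ᶜ).card by omega)
    have hx := c3_three huv huw hvw
    obtain ⟨j, s, hs, e⟩ := hfix _ hx (by
      intro z hz
      by_contra hz'
      refine mem_support.1 hz (c3_ne ?_ ?_ ?_) <;> rintro rfl <;> contradiction)
    obtain ⟨π, τ, hπ, hwK⟩ := hK.trans i j
    have hx' : (τ j * c3 u v w * (τ j)⁻¹).IsThreeCycle := by
      rw [IsThreeCycle, cycleType_conj]; exact hx
    obtain ⟨r, hr⟩ := isConj_iff.1 (alternatingGroup.isThreeCycle_isConj (α := X)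
      (by rw [Nat.card_eq_fintype_card]; exact h5)
      (σ := ⟨_, hx'.mem_alternatingGroup⟩) (τ := ⟨_, hs.mem_alternatingGroup⟩) hx' hs)
    have hr' : (r : Perm X) * (τ j * c3 u v w * (τ j)⁻¹) * (r : Perm X)⁻¹ = s :=
      congrArg Subtype.val hr
    set w' := act j (r : Perm X) * wr π τ with hw'
    have hw'K : w' ∈ K := K.mul_mem (hK.alt j _ (mem_alternatingGroup.1 r.2)) hwK
    have hw'W : w' ∈ W ι X := (W ι X).mul_mem (act_mem_W _ _) (wr_mem _ _)
    have e' : w' * act i (c3 u v w) * w'⁻¹ = act j s := by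
      have := wr_conj_act π τ i (c3 u v w)
      rw [hπ] at this
      rw [← hr', map_mul, map_mul, map_inv, ← this, hw']; group
    have hm := m5 hK h0 ih (by omega) (i := i) hx (K.mul_mem (K.inv_mem hw'K) hg) (by
      have : g * act i (c3 u v w) * g⁻¹ = w' * act i (c3 u v w) * w'⁻¹ := e.trans e'.symm
      calc w'⁻¹ * g * act i (c3 u v w) = w'⁻¹ * (g * act i (c3 u v w) * g⁻¹) * g := by group
        _ = _ := by rw [this]; group)
    exact hgW (((W ι X).mul_mem_cancel_left ((W ι X).inv_mem hw'W)).1 hm)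

end CfsgLib.WrP
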