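import Mathlib
import Cfsg.Agent.Lib.WrP.Defs

set_option autoImplicit false
set_option linter.unusedSectionVars false

namespace CfsgLib.WrP

open Equiv Equiv.Perm

variable {ι X : Type} [Fintype ι] [DecidableEq ι] [Fintype X] [DecidableEq X]
variable {K : Subgroup (Perm (ι → X))}

theorem sign_prodp (i : ι) (s : Perm X) (σ : Perm ({j // j ≠ i} → X)) :
    sign (prodp i s σ)
      = sign s ^ (Fintype.card X ^ (Fintype.card ι - 1)) * sign σ ^ Fintype.card X := by
  have e : (Equiv.prodCongr s σ : Perm (X × ({j // j ≠ i} → X)))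
      = (prodCongrLeft fun _ => s) * (prodCongrRight fun _ => σ) := by
    ext ⟨u, ω⟩ <;> simp
  rw [prodp, sign_permCongr, e, Perm.sign_mul, sign_prodCongrLeft, sign_prodCongrRight]
  simp only [Finset.prod_const, Finset.card_univ, card_res]

theorem sign_act (i : ι) (s : Perm X) :
    sign (act i s) = sign s ^ (Fintype.card X ^ (Fintype.card ι - 1)) := by
  rw [← prodp_one_right, sign_prodp]; simp

/-- an element of `W` can be corrected to an even one when `|X|` is odd -/
theorem par_odd (h5 : 5 ≤ Fintype.card X) (hm : Odd (Fintype.card X)) (i : ι)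
    (g : Perm (ι → X)) : ∃ s, sign (act i s * g) = 1 := by
  rcases Int.units_eq_one_or (sign g) with h | h
  · exact ⟨1, by simpa using h⟩
  · obtain ⟨u, v, huv⟩ := Fintype.exists_pair_of_one_lt_card (α := X) (by omega)
    refine ⟨swap u v, ?_⟩
    rw [Perm.sign_mul, sign_act, sign_swap huv, h, Odd.neg_one_pow hm.pow]; simp

/-- the sign of the exchange of the two coordinates -/
theorem par_swap (h2 : Fintype.card ι = 2) (h4 : Fintype.card X % 4 = 0) {i j : ι} (hij : i ≠ j) :
    sign (wr (swap i j) (fun _ => (1 : Perm X))) = 1 := by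
  set w := wr (swap i j) (fun _ => (1 : Perm X)) with hw
  have hw2 : w ^ 2 = 1 := by
    rw [sq, hw, wr_mul]; simp [wr_one]
  have hall : ∀ l, l = i ∨ l = j := by
    intro l
    by_contra! hl
    have : ({i, j, l} : Finset ι).card = 3 := by
      rw [Finset.card_eq_three]; exact ⟨i, j, l, hij, hl.1.symm, hl.2.symm, rfl⟩
    have h1 := Finset.card_le_univ ({i, j, l} : Finset ι)
    omega
  have hfix : Fintype.card (Function.fixedPoints w) = Fintype.card X := by
    refine Fintype.card_congr ⟨fun f => f.1 i, fun u => ⟨fun _ => u, ?_⟩, ?_, fun u => rfl⟩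
    · funext l; simp [hw]
    · rintro ⟨f, hf⟩
      ext l
      rcases hall l with rfl | rfl
      · rfl
      · have := congrFun hf l
        simpa [hw] using this
  rw [sign_of_pow_two_eq_one hw2, hfix, Fintype.card_fun, h2]
  obtain ⟨c, hc⟩ : ∃ c, Fintype.card X = 4 * c := ⟨_, (Nat.div_add_mod _ 4).symm.trans (by rw [h4, add_zero])⟩
  have : (Fintype.card X ^ 2 - Fintype.card X) / 2 = 2 * (c * (4 * c - 1)) := by
    rw [hc]
    have : (4 * c) ^ 2 - 4 * c = 2 * (2 * (c * (4 * c - 1))) := by
      rcases c with _ | c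
      · simp
      · have : 4 * (c + 1) - 1 = 4 * c + 3 := by omega
        rw [this]; apply Nat.sub_eq_of_eq_add; ring
    omega
  rw [this, pow_mul]; simp

/-- PAR: a group containing the even elements of `W` satisfies the standing hypothesis, outside
the exceptional case -/
theorem hyp_of_even (h5 : 5 ≤ Fintype.card X) (h2 : 2 ≤ Fintype.card ι)
    (hex : ¬ (Fintype.card ι = 2 ∧ Fintype.card X % 4 = 2))
    (h : ∀ g ∈ W ι X, sign g = 1 → g ∈ K) : Hyp K := by
  have hcov : ∀ i, ∀ σ ∈ W {j // j ≠ i} X, ∃ s, prodp i s σ ∈ K := by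
    intro i σ hσ
    rcases Nat.even_or_odd (Fintype.card X) with hm | hm
    · refine ⟨1, h _ (prodp_mem_W i 1 hσ) ?_⟩
      rw [sign_prodp, Int.units_pow_eq_pow_mod_two (sign σ), Nat.even_iff.1 hm]; simp
    · obtain ⟨s, hs⟩ := par_odd h5 hm i (prodp i 1 σ)
      rw [act_mul_prodp] at hs
      exact ⟨_, h _ (prodp_mem_W i _ hσ) hs⟩
  refine ⟨h5, fun i s hs => h _ (act_mem_W i s) (by rw [sign_act, hs, one_pow]), hcov, ?_⟩
  intro i j
  by_cases hij : i = j
  · exact ⟨1, fun _ => 1, by simp [hij], by rw [wr_one]; exact K.one_mem⟩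
  have key : ∀ l s, act l s * wr (swap i j) (fun _ => (1 : Perm X)) ∈ K →
      ∃ (π : Perm ι) (τ : ι → Perm X), π i = j ∧ wr π τ ∈ K := by
    intro l s hs
    unfold act at hs
    simp only [MonoidHom.coe_mk, OneHom.coe_mk, wr_mul, one_mul] at hs
    exact ⟨_, _, by simp, hs⟩
  by_cases h3 : 3 ≤ Fintype.card ι
  · obtain ⟨l, hl⟩ : ∃ l, l ∉ ({i, j} : Finset ι) :=
      exists_notMem (lt_of_le_of_lt Finset.card_le_two (by omega))
    simp only [Finset.mem_insert, Finset.mem_singleton, not_or] at hl
    obtain ⟨σ, hσ, e⟩ := wr_eq_prodp (i := l) (π := swap i j)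
      (swap_apply_of_ne_of_ne hl.1 hl.2) (fun _ => (1 : Perm X))
    obtain ⟨s, hs⟩ := hcov l σ hσ
    exact key l s (by rwa [e, act_mul_prodp, mul_one])
  · have h2' : Fintype.card ι = 2 := by omega
    rcases Nat.even_or_odd (Fintype.card X) with hm | hm
    · have h4 : Fintype.card X % 4 = 0 := by
        rw [Nat.even_iff] at hm; omega
      exact ⟨swap i j, fun _ => 1, by simp, h _ (wr_mem _ _) (par_swap h2' h4 hij)⟩
    · obtain ⟨s, hs⟩ := par_odd h5 hm i (wr (swap i j) (fun _ => (1 : Perm X)))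
      exact key i s (h _ ((W ι X).mul_mem (act_mem_W i s) (wr_mem _ _)) hs)

/-- `W` does not contain the alternating group -/
theorem not_alt_le (h3 : 3 ≤ Fintype.card X) (h2 : 2 ≤ Fintype.card ι) :
    ¬ alternatingGroup (ι → X) ≤ W ι X := by
  intro h
  obtain ⟨i, j, hij⟩ := Fintype.exists_pair_of_one_lt_card (α := ι) (by omega)
  obtain ⟨a, b, c, hab, hac, hbc⟩ : ∃ a b c : X, a ≠ b ∧ a ≠ c ∧ b ≠ c := by
    obtain ⟨a, -, b, -, c, -, h⟩ := Finset.two_lt_card.1 (show 2 < (Finset.univ : Finset X).card by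
      rw [Finset.card_univ]; omega)
    exact ⟨a, b, c, h⟩
  set p : X → ι → X := fun u => Function.update (fun _ => a) i u with hp
  have hne : ∀ {u v}, u ≠ v → p u ≠ p v := fun huv e => huv (by simpa [hp] using congrFun e i)
  set q : ι → X := Function.update (fun _ => a) j b with hq
  have hq' : ∀ u, q ≠ p u := fun u e => hab (by
    have := congrFun e j
    simpa [hp, hq, hij.symm] using this.symm)
  have hw := h (mem_alternatingGroup.2 (c3_three (hne hab) (hne hac) (hne hbc)).sign)
  have := hamming_W hw (p a) q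
  rw [c3_a (hne hab) (hne hac) (hne hbc), c3_ne (hq' a) (hq' b) (hq' c)] at this
  have h1 : hammingDist (p a) q ≤ 1 := by
    unfold hammingDist
    refine (Finset.card_le_card (t := {j}) fun l hl => ?_).trans (by simp)
    rw [Finset.mem_filter] at hl
    by_contra hlj
    have hlj' : l ≠ j := by simpa using hlj
    exact hl.2 (by simp [hp, hq, hlj'])
  have h2 : 2 ≤ hammingDist (p b) q := by
    unfold hammingDist
    refine le_trans (by simp [hij]) (Finset.card_le_card (s := {i, j}) fun l hl => ?_)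
    rw [Finset.mem_filter]
    refine ⟨Finset.mem_univ _, ?_⟩
    rcases Finset.mem_insert.1 hl with rfl | hl
    · simp [hp, hq, hij, hab.symm]
    · rw [Finset.mem_singleton] at hl; subst hl
      simp [hp, hq, hij.symm, hab]
  omega

end CfsgLib.WrP
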