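import Mathlib
import Cfsg.Agent.Lib.WrP.Max
import Cfsg.Agent.Lib.WrP.JM
import Cfsg.Agent.Lib.WrP.Par

set_option autoImplicit false
set_option linter.unusedSectionVars false

namespace CfsgLib.WrP

open Equiv Equiv.Perm

theorem W_eq_top {ι X : Type} [Fintype ι] [DecidableEq ι] [Fintype X] [DecidableEq X]
    (h : Fintype.card ι = 1) : W ι X = ⊤ := by
  obtain ⟨i, hi⟩ := Fintype.card_eq_one_iff.1 h
  letI : Unique ι := ⟨⟨i⟩, hi⟩
  refine eq_top_iff.2 fun g _ => mem_W'.2 ⟨1, fun _ => (Equiv.funUnique ι X).permCongr g, ?_⟩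
  intro f j
  have e : (Equiv.funUnique ι X).symm (f j) = f := by
    funext l; simp only [Equiv.funUnique_symm_apply, uniqueElim_const]
    exact congrArg f (Subsingleton.elim _ _)
  simp only [one_symm_apply, Equiv.permCongr_apply, e, Equiv.funUnique_apply]
  exact congrArg (g f) (Subsingleton.elim _ _)

/-- the main theorem: an overgroup of the even part of `W` lies in `W` or contains the
alternating group -/
theorem mt {X : Type} [Fintype X] [DecidableEq X] (k : ℕ) :
    ∀ (ι : Type) [Fintype ι] [DecidableEq ι], Fintype.card ι = k + 1 →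
      ∀ K : Subgroup (Perm (ι → X)), Hyp K → K ≤ W ι X ∨ alternatingGroup _ ≤ K := by
  induction k with
  | zero => intro ι _ _ h K _; left; rw [W_eq_top h]; exact le_top
  | succ k ihk =>
    intro ι _ _ h K hK
    have ih : IH ι X := by
      intro i L hL
      have hc : Fintype.card {j // j ≠ i} = k + 1 := by rw [card_sub, h]; rfl
      rcases Nat.eq_zero_or_pos k with rfl | hk
      · left; rw [W_eq_top hc]; exact le_top
      · exact (ihk _ hc L (hyp_of_W_le hK.five hL)).imp id fun h' => ⟨by omega, h'⟩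
    haveI : Nonempty ι := Fintype.card_pos_iff.1 (by omega)
    rcases dich hK with ⟨i, a, hJ⟩ | h0
    · exact Or.inr (jordan hK ih (by omega) hJ)
    · exact Or.inl (nonJ hK h0 ih)

variable {ι X : Type} [Fintype ι] [DecidableEq ι] [Fintype X] [DecidableEq X]

theorem mt' (h2 : 2 ≤ Fintype.card ι) {K : Subgroup (Perm (ι → X))} (hK : Hyp K) :
    K ≤ W ι X ∨ alternatingGroup _ ≤ K :=
  mt (Fintype.card ι - 1) ι (by omega) K hK

theorem coatom_alt (h5 : 5 ≤ Fintype.card X) (h2 : 2 ≤ Fintype.card ι)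
    (hex : ¬ (Fintype.card ι = 2 ∧ Fintype.card X % 4 = 2)) :
    IsCoatom ((W ι X).subgroupOf (alternatingGroup (ι → X))) := by
  refine ⟨fun h => not_alt_le (by omega) h2 (Subgroup.subgroupOf_eq_top.1 h), fun M hM => ?_⟩
  have hK : Hyp (M.map (alternatingGroup (ι → X)).subtype) :=
    hyp_of_even h5 h2 hex fun g hg hs =>
      ⟨⟨g, mem_alternatingGroup.2 hs⟩, hM.le (Subgroup.mem_subgroupOf.2 hg), rfl⟩
  rcases mt' h2 hK with h | h
  · exact absurd (fun x hx => Subgroup.mem_subgroupOf.2 (h ⟨x, hx, rfl⟩)) hM.2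
  · refine eq_top_iff.2 fun x _ => ?_
    obtain ⟨y, hy, e⟩ := h x.2
    rwa [← Subtype.ext e]

theorem coatom_sym (h5 : 5 ≤ Fintype.card X) (h2 : 2 ≤ Fintype.card ι)
    (hodd : ∃ σ ∈ W ι X, sign σ = -1) : IsCoatom (W ι X) := by
  refine ⟨fun h => not_alt_le (by omega) h2 (h ▸ le_top), fun M hM => ?_⟩
  rcases mt' h2 (hyp_of_W_le h5 hM.le) with h | h
  · exact absurd h hM.2
  · obtain ⟨σ, hσ, hs⟩ := hodd
    refine eq_top_iff.2 fun x _ => ?_
    rcases Int.units_eq_one_or (sign x) with hx | hx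
    · exact h (mem_alternatingGroup.2 hx)
    · have : x * σ⁻¹ ∈ M := h (mem_alternatingGroup.2 (by simp [hx, hs]))
      simpa using M.mul_mem this (hM.le hσ)

end CfsgLib.WrP
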